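import Cfsg.Agent.H21.BRDefs

/-!
# Brauer–Reynolds master theorem (team project S0996 / S4700, helper21): definitions

`ND p n`: the number `(p - 1) * (1 + n * p)` has no divisor congruent to `1` modulo `p` strictly
between `1` and `1 + n * p`.  (Its negation is equivalent to `n = F(p, u, h)`.)

`TypeBw p e t w n X Y δ ε`: the degrees of the principal block in "type B with parameter `w`":
`n + 1 = t w`, the `+`-characters have degree `1 + n p = t (w p - e)`, the `-`-characters `p - 1`,
the exceptional characters `w p - e` (sign `ε = -1`), and `e - 1 = w (a t + 1)` with `a` the number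
of `+`-characters.
-/

set_option autoImplicit false

namespace Cfsg.Agent.H21.BR

open Cfsg

/-- No divisor of `(p - 1) (1 + n p)` congruent to `1` mod `p` lies strictly between `1` and
`1 + n p`. -/
def ND (p n : ℕ) : Prop :=
  ∀ d : ℕ, d ∣ (p - 1) * (1 + n * p) → d % p = 1 → d = 1 ∨ 1 + n * p ≤ d

/-- The degrees in "type B with parameter `w`". -/
structure TypeBw {G : Type*} [Group G] (p e t w n : ℕ) (X Y : Finset (IrrCharacter G))
    (δ : IrrCharacter G → ℤ) (ε : ℤ) : Prop where
  het : e * t = p - 1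
  he2 : 2 ≤ e
  ht1 : 1 ≤ t
  hw1 : 1 ≤ w
  hn : n + 1 = t * w
  hε : ε = -1
  deg_plus : ∀ χ ∈ plusSet X δ, charDegree (χ : G → ℂ) = 1 + n * p
  deg_minus : ∀ χ ∈ minusSet X δ, charDegree (χ : G → ℂ) = p - 1
  deg_Y : ∀ θ ∈ Y, charDegree (θ : G → ℂ) = w * p - e
  card_plus : w * ((plusSet X δ).card * t + 1) = e - 1
  card_G : Nat.card G = p * (p - 1) * (w * p - e)

end Cfsg.Agent.H21.BR
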