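import Cfsg.Agent.S0907
import Cfsg.Agent.S0910
import Cfsg.Agent.H78.DefectZero

/-!
# Brauer–Tuan: in a simple group of order `p^a q^b r` a Sylow `r`-subgroup is self-centralizing

(helper21)  The proof uses only weak block orthogonality for the prime `p` (S0907), the fact that the
principal `p`-block of a non-abelian simple group has no non-principal character of `p`-power
degree (S0910) and the vanishing of characters of `r`-defect zero on `r`-singular elements.
-/

set_option autoImplicit false
set_option linter.unusedSectionVars false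
set_option linter.style.haveILetI false

namespace Cfsg.Agent.H21.BrauerTuan

open Cfsg

open scoped ComplexConjugate

/-- Core lemma: in a non-abelian simple group of order `p^a q^b r` no element of order `p`
commutes with an element of order `r`. -/
theorem no_commuting {G : Type*} [Group G] [Finite G] [IsSimpleGroup G]
    (hna : ∃ a b : G, a * b ≠ b * a) (p q r a b : ℕ) (hp : p.Prime) (hq : q.Prime) (hr : r.Prime)
    (hpr : p ≠ r) (hqr : q ≠ r) (hcard : Nat.card G = p ^ a * q ^ b * r)
    (x y : G) (hxy : Commute x y) (hx : orderOf x = r) (hy : orderOf y = p) : False := by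
  classical
  haveI : Fintype G := Fintype.ofFinite G
  haveI : Fact p.Prime := ⟨hp⟩
  haveI := Cfsg.Agent.H4.finite_irr G
  obtain ⟨M, hM⟩ := Cfsg.Agent.H78.exists_isPModular p hp
  obtain ⟨g, hg⟩ : ∃ g : G, g = x * y := ⟨_, rfl⟩
  have hog : orderOf g = r * p := by
    rw [hg, hxy.orderOf_mul_eq_mul_orderOf_of_coprime (by
      rw [hx, hy]; exact (Nat.coprime_primes hr hp).mpr (Ne.symm hpr)), hx, hy]
  have hpg : p ∣ orderOf g := by rw [hog]; exact dvd_mul_left p r
  have hrg : r ∣ orderOf g := by rw [hog]; exact dvd_mul_right r p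
  let χ₀ : IrrCharacter G := ⟨fun _ => 1, Cfsg.Agent.H4.isIrrCharacter_one⟩
  have hB : IsPBlock M (principalBlock M G) := ⟨χ₀, rfl⟩
  have h0 := Cfsg.Agent.S0907.result p M hM (principalBlock M G) hB 1 g
    (by rw [orderOf_one]; exact hp.not_dvd_one) hpg
  have hfin : (principalBlock M G).Finite := Set.toFinite _
  rw [finsum_mem_eq_finite_toFinset_sum _ hfin] at h0
  have hχ₀mem : χ₀ ∈ hfin.toFinset := by
    rw [Set.Finite.mem_toFinset]
    exact Cfsg.Agent.H81.mem_blockOf_self hM χ₀
  rw [← Finset.add_sum_erase _ _ hχ₀mem] at h0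
  -- the other terms lie in `q * AlgInt`
  have hrest : ∃ w : ℂ, IsIntegral ℤ w ∧
      ∑ χ ∈ hfin.toFinset.erase χ₀, (χ : G → ℂ) 1 * conj ((χ : G → ℂ) g) = (q : ℂ) * w := by
    refine Finset.sum_induction _ (fun z : ℂ => ∃ w : ℂ, IsIntegral ℤ w ∧ z = (q : ℂ) * w) ?_ ?_ ?_
    · rintro z₁ z₂ ⟨w₁, hw₁, rfl⟩ ⟨w₂, hw₂, rfl⟩
      exact ⟨w₁ + w₂, hw₁.add hw₂, by ring⟩
    · exact ⟨0, isIntegral_zero, by simp⟩
    · intro χ hχ
      rw [Finset.mem_erase, Set.Finite.mem_toFinset] at hχ
      obtain ⟨hne, hχB⟩ := hχ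
      obtain ⟨hd1, hdpos⟩ := Cfsg.Agent.H81.irr_charDegree χ
      have hddvd := Cfsg.Agent.H81.irr_charDegree_dvd χ
      obtain ⟨d, hd⟩ : ∃ d : ℕ, d = charDegree (χ : G → ℂ) := ⟨_, rfl⟩
      rw [← hd] at hd1 hdpos hddvd
      have hint : IsIntegral ℤ (conj ((χ : G → ℂ) g)) := by
        rw [← Cfsg.Agent.H81.irr_inv χ g]
        exact Cfsg.Agent.H81.irr_isIntegral χ g⁻¹
      by_cases hrd : r ∣ d
      · -- `r`-defect zero: the character vanishes at `g`
        have hdef : ¬ r ∣ Nat.card G / charDegree (χ : G → ℂ) := by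
          rw [← hd]
          obtain ⟨m, hm⟩ := hrd
          intro hdiv
          have hG : Nat.card G = d * (Nat.card G / d) := (Nat.mul_div_cancel' hddvd).symm
          obtain ⟨m', hm'⟩ := hdiv
          have h2 : r * r ∣ Nat.card G := by
            rw [hG, hm', hm]
            exact ⟨m * m', by ring⟩
          rw [hcard] at h2
          have h3 : r ∣ p ^ a * q ^ b := by
            have h4 : r * r ∣ r * (p ^ a * q ^ b) := by rwa [mul_comm r (p ^ a * q ^ b)]
            exact (Nat.mul_dvd_mul_iff_left hr.pos).mp h4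
          rcases (Nat.Prime.dvd_mul hr).mp h3 with h5 | h5
          · exact hpr ((Nat.prime_dvd_prime_iff_eq hr hp).mp (hr.dvd_of_dvd_pow h5)).symm
          · exact hqr ((Nat.prime_dvd_prime_iff_eq hr hq).mp (hr.dvd_of_dvd_pow h5)).symm
        have hv := Cfsg.Agent.H78.irr_defect_zero_vanish r hr χ hdef g hrg
        refine ⟨0, isIntegral_zero, ?_⟩
        rw [hv]; simp
      · by_cases hqd : q ∣ d
        · obtain ⟨m, hm⟩ := hqd
          have hmint : IsIntegral ℤ ((m : ℕ) : ℂ) := by
            have := isIntegral_algebraMap (R := ℤ) (A := ℂ) (x := (m : ℤ))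
            simpa using this
          refine ⟨(m : ℂ) * conj ((χ : G → ℂ) g), hmint.mul hint, ?_⟩
          rw [hd1, hm]; push_cast; ring
        · -- degree is a power of `p`: impossible by S0910
          exfalso
          have hdp : d ∣ p ^ a := by
            have h1 : d ∣ p ^ a * q ^ b * r := hcard ▸ hddvd
            have hcr : Nat.Coprime d r := (Nat.Coprime.symm ((Nat.Prime.coprime_iff_not_dvd hr).mpr hrd))
            have h2 : d ∣ p ^ a * q ^ b := hcr.dvd_of_dvd_mul_right h1
            have hcq : Nat.Coprime d (q ^ b) :=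
              Nat.Coprime.pow_right b (Nat.Coprime.symm ((Nat.Prime.coprime_iff_not_dvd hq).mpr hqd))
            exact hcq.dvd_of_dvd_mul_right h2
          obtain ⟨k, _, hk⟩ := (Nat.dvd_prime_pow hp).mp hdp
          have hdeg : (χ : G → ℂ) 1 = (p : ℂ) ^ k := by rw [hd1, hk]; push_cast; rfl
          have h1 := Cfsg.Agent.S0910.result p M hM hna χ hχB k hdeg
          exact hne (Subtype.ext h1)
  obtain ⟨w, hw, hsum⟩ := hrest
  rw [hsum] at h0
  have hone : ((χ₀ : G → ℂ) 1 * conj ((χ₀ : G → ℂ) g)) = 1 := by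
    show (1 : ℂ) * conj (1 : ℂ) = 1
    simp
  rw [hone] at h0
  have hqC : (q : ℂ) ≠ 0 := by exact_mod_cast hq.ne_zero
  have hint : IsIntegral ℤ (((1 : ℕ) : ℂ) / ((q : ℕ) : ℂ)) := by
    have : ((1 : ℕ) : ℂ) / ((q : ℕ) : ℂ) = -w := by
      rw [div_eq_iff hqC]
      have : (q : ℂ) * w = -1 := by linear_combination h0
      push_cast
      linear_combination this
    rw [this]
    exact hw.neg
  have := Cfsg.Agent.H81.nat_dvd_of_isIntegral_div hq.ne_zero hint
  exact hq.one_lt.ne' (Nat.dvd_one.mp this)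

/-- A Sylow `r`-subgroup of a group of order `p^a q^b r` has order `r`. -/
theorem card_sylow {G : Type*} [Group G] [Finite G]
    (p q r a b : ℕ) (hp : p.Prime) (hq : q.Prime) [Fact r.Prime] (hpr : p ≠ r) (hqr : q ≠ r)
    (hcard : Nat.card G = p ^ a * q ^ b * r) (S : Sylow r G) : Nat.card S = r := by
  have hr : r.Prime := Fact.out
  have hcop : Nat.Coprime (p ^ a * q ^ b) r :=
    Nat.Coprime.mul_left (Nat.Coprime.pow_left a ((Nat.coprime_primes hp hr).mpr hpr))
      (Nat.Coprime.pow_left b ((Nat.coprime_primes hq hr).mpr hqr))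
  rw [Sylow.card_eq_multiplicity, hcard]
  have h1 : (p ^ a * q ^ b * r).factorization r = 1 := by
    rw [Nat.factorization_mul (Nat.mul_ne_zero (pow_ne_zero a hp.ne_zero)
        (pow_ne_zero b hq.ne_zero)) hr.ne_zero, Finsupp.add_apply,
      Nat.factorization_eq_zero_of_not_dvd (fun h => by
        have := Nat.Coprime.eq_one_of_dvd hcop.symm h
        exact hr.one_lt.ne' this), hr.factorization_self]
  rw [h1, pow_one]

/-- Brauer–Tuan: in a finite simple group of order `p^a q^b r` (distinct primes), a Sylow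
`r`-subgroup is its own centralizer. -/
theorem centralizer_sylow_eq {G : Type*} [Group G] [Finite G] [IsSimpleGroup G]
    (p q r a b : ℕ) (hp : p.Prime) (hq : q.Prime) [Fact r.Prime] (hpr : p ≠ r) (hqr : q ≠ r)
    (hcard : Nat.card G = p ^ a * q ^ b * r) (S : Sylow r G) :
    Subgroup.centralizer (S : Set G) = (S : Subgroup G) := by
  classical
  have hr : r.Prime := Fact.out
  -- the order of `S`
  have hcop : Nat.Coprime (p ^ a * q ^ b) r :=
    Nat.Coprime.mul_left (Nat.Coprime.pow_left a ((Nat.coprime_primes hp hr).mpr hpr))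
      (Nat.Coprime.pow_left b ((Nat.coprime_primes hq hr).mpr hqr))
  have hSr : Nat.card S = r := by
    rw [Sylow.card_eq_multiplicity, hcard]
    have h1 : (p ^ a * q ^ b * r).factorization r = 1 := by
      rw [Nat.factorization_mul (Nat.mul_ne_zero (pow_ne_zero a hp.ne_zero)
          (pow_ne_zero b hq.ne_zero)) hr.ne_zero, Finsupp.add_apply,
        Nat.factorization_eq_zero_of_not_dvd (fun h => by
          have := Nat.Coprime.eq_one_of_dvd hcop.symm h
          exact hr.one_lt.ne' this), hr.factorization_self]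
    rw [h1, pow_one]
  by_cases hab : ∀ u v : G, u * v = v * u
  · -- abelian case: `S` is normal and nontrivial, so `S = ⊤`
    have hSn : (S : Subgroup G).Normal := ⟨fun n hn g => by
      have : g * n * g⁻¹ = n := by rw [hab g n, mul_assoc, mul_inv_cancel, mul_one]
      rw [this]; exact hn⟩
    rcases IsSimpleGroup.eq_bot_or_eq_top_of_normal (S : Subgroup G) hSn with h | h
    · exfalso
      have : Nat.card (S : Subgroup G) = 1 := by rw [h]; exact Subgroup.card_bot
      rw [hSr] at this
      exact hr.one_lt.ne' this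
    · rw [h]
      ext z
      simp only [Subgroup.mem_top, iff_true]
      rw [Subgroup.mem_centralizer_iff]
      intro s _
      exact hab s z
  · push Not at hab
    obtain ⟨u, v, huv⟩ := hab
    have hna : ∃ a b : G, a * b ≠ b * a := ⟨u, v, huv⟩
    -- `S ≤ C(S)` since `S` has prime order
    have hScomm : ∀ s ∈ (S : Subgroup G), ∀ t ∈ (S : Subgroup G), s * t = t * s := by
      haveI : Fact (Nat.card (S : Subgroup G)).Prime := ⟨by rw [hSr]; exact hr⟩
      haveI : IsCyclic (S : Subgroup G) := isCyclic_of_prime_card rfl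
      intro s hs t ht
      have := (IsCyclic.commGroup (α := (S : Subgroup G))).mul_comm ⟨s, hs⟩ ⟨t, ht⟩
      exact congrArg Subtype.val this
    have hle : (S : Subgroup G) ≤ Subgroup.centralizer (S : Set G) := by
      intro t ht
      rw [Subgroup.mem_centralizer_iff]
      intro s hs
      exact hScomm s hs t ht
    -- an element of order `r` in `S`
    obtain ⟨x0, hx0⟩ := exists_prime_orderOf_dvd_card' (G := (S : Subgroup G)) r (by rw [hSr])
    have hxr : orderOf (x0 : G) = r := by rw [Subgroup.orderOf_coe]; exact hx0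
    -- the order of the centralizer
    obtain ⟨C, hC⟩ : ∃ C : Subgroup G, C = Subgroup.centralizer (S : Set G) := ⟨_, rfl⟩
    rw [← hC] at hle ⊢
    have hCdvd : Nat.card C ∣ p ^ a * q ^ b * r := hcard ▸ Subgroup.card_subgroup_dvd_card C
    have hrC : r ∣ Nat.card C := hSr ▸ Subgroup.card_dvd_of_le hle
    obtain ⟨m, hm⟩ := hrC
    have hmdvd : m ∣ p ^ a * q ^ b := by
      have h1 : r * m ∣ r * (p ^ a * q ^ b) := by
        rw [← hm, mul_comm r (p ^ a * q ^ b)]; exact hCdvd
      exact (Nat.mul_dvd_mul_iff_left hr.pos).mp h1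
    have hm1 : m = 1 := by
      by_contra hne
      obtain ⟨l, hl, hlm⟩ := Nat.exists_prime_and_dvd hne
      haveI : Fact l.Prime := ⟨hl⟩
      have hlC : l ∣ Nat.card C := by rw [hm]; exact Dvd.dvd.mul_left hlm r
      obtain ⟨y0, hy0⟩ := exists_prime_orderOf_dvd_card' (G := C) l hlC
      have hyl : orderOf (y0 : G) = l := by rw [Subgroup.orderOf_coe]; exact hy0
      have hcomm : Commute (x0 : G) (y0 : G) := by
        have h1 : (y0 : G) ∈ Subgroup.centralizer ((S : Subgroup G) : Set G) := hC ▸ y0.2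
        rw [Subgroup.mem_centralizer_iff] at h1
        exact h1 (x0 : G) x0.2
      have hlpq : l ∣ p ^ a * q ^ b := hlm.trans hmdvd
      rcases (Nat.Prime.dvd_mul hl).mp hlpq with h | h
      · have hlp : l = p := (Nat.prime_dvd_prime_iff_eq hl hp).mp (hl.dvd_of_dvd_pow h)
        exact no_commuting hna p q r a b hp hq hr hpr hqr hcard (x0 : G) (y0 : G) hcomm hxr
          (hlp ▸ hyl)
      · have hlq : l = q := (Nat.prime_dvd_prime_iff_eq hl hq).mp (hl.dvd_of_dvd_pow h)
        exact no_commuting hna q p r b a hq hp hr hqr hpr (by rw [hcard]; ring) (x0 : G) (y0 : G)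
          hcomm hxr (hlq ▸ hyl)
    have hCr : Nat.card C = Nat.card (S : Subgroup G) := by rw [hm, hm1, mul_one, hSr]
    exact (Subgroup.eq_of_le_of_card_ge hle hCr.le).symm

end Cfsg.Agent.H21.BrauerTuan
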