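import Cfsg.Agent.H21.BRTail
import Cfsg.Agent.H21.BRMDefs
import Cfsg.Agent.H19.BRMFrob
import Cfsg.Agent.H19.BRMOut
import Cfsg.Agent.H27.BRMNe
import Cfsg.Agent.H27.BRMNp
import Cfsg.Agent.H35.BRMArith
import Cfsg.Agent.H4.BRMFix
import Cfsg.Agent.H4.BRMTypeA
import Cfsg.Agent.H65.BRMSetup1
import Cfsg.Agent.H69.BRMSQ
import Cfsg.Agent.H69.BRMW1
import Cfsg.Agent.H86.BRMMain

/-!
# The Brauer–Reynolds master theorem

`G` simple, `|P| = p`, `C(P) = P`, `n_p = 1 + n p` and `ND p n` (no divisor of `(p-1)(1+np)`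
congruent to `1` mod `p` strictly between `1` and `1 + n p`) force `G ≅ PSL(2, p)` or
`G ≅ SL(2, 2^a)` with `p = 2^a + 1`.
-/

set_option autoImplicit false

namespace Cfsg.Agent.H21.BR

open Cfsg Cfsg.Agent.H21

/-- The sum of the squares of the degrees over a finset of irreducible characters is at most
`|G|`. -/
theorem sum_deg_sq_le {G : Type*} [Group G] [Finite G] (S : Finset (IrrCharacter G)) :
    ∑ ψ ∈ S, (charDegree (ψ : G → ℂ)) ^ 2 ≤ Nat.card G := by
  classical
  letI := Cfsg.Agent.H4.fintypeIrr G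
  have h1 := Cfsg.Agent.H4.sum_irr_sq (G := G)
  rw [Cfsg.Agent.H4.finsum_irr_eq_sum] at h1
  have h2 : ∑ ψ : IrrCharacter G, (charDegree (ψ : G → ℂ)) ^ 2 = Nat.card G := by
    have h3 : ((∑ ψ : IrrCharacter G, (charDegree (ψ : G → ℂ)) ^ 2 : ℕ) : ℂ) =
        ((Nat.card G : ℕ) : ℂ) := by
      rw [← h1]
      push_cast
      apply Finset.sum_congr rfl
      intro ψ _
      rw [(Cfsg.Agent.H81.irr_charDegree ψ).1]
    exact_mod_cast h3
  rw [← h2]
  exact Finset.sum_le_sum_of_subset (Finset.subset_univ S)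

/-- The degree of the principal character. -/
theorem charDegree_one' (G : Type*) [Group G] :
    charDegree ((one G : IrrCharacter G) : G → ℂ) = 1 := by
  have h := (Cfsg.Agent.H81.irr_charDegree (one G)).1
  rw [Cfsg.Agent.H21.E2Block.triv_apply] at h
  exact_mod_cast h.symm

/-- **Master theorem.** -/
theorem master {G : Type*} [Group G] [Finite G] [IsSimpleGroup G] (hG : ¬ IsCyclic G)
    (p : ℕ) [Fact p.Prime] (P : Sylow p G) (hPc : Nat.card (P : Subgroup G) = p)
    (hC : Subgroup.centralizer ((P : Subgroup G) : Set G) = (P : Subgroup G))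
    (n : ℕ) (hn : Nat.card (Sylow p G) = 1 + n * p) (hND : ND p n) :
    (∃ (F : Type) (_ : Field F) (_ : Fintype F), Fintype.card F = p ∧ 3 < p ∧
        Nonempty (G ≃* Matrix.ProjectiveSpecialLinearGroup (Fin 2) F)) ∨
      (∃ (a : ℕ) (F : Type) (_ : Field F) (_ : Fintype F), Fintype.card F = 2 ^ a ∧
        p = 2 ^ a + 1 ∧ 3 < p ∧ Nonempty (G ≃* Matrix.SpecialLinearGroup (Fin 2) F)) := by
  classical
  have hp : p.Prime := Fact.out
  have hnc : ¬ IsMulCommutative G := by
    intro hc
    have h1 : (Nat.card G).Prime := Group.is_simple_iff_prime_card.1 inferInstance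
    haveI : Fact (Nat.card G).Prime := ⟨h1⟩
    exact hG (isCyclic_of_prime_card rfl)
  have hna : ∃ a b : G, a * b ≠ b * a := by
    by_contra h
    push Not at h
    exact hnc ⟨⟨h⟩⟩
  obtain ⟨e, he, he1, hedvd, -⟩ := simple_sylow_prime_card_NC hnc P hPc
  have hp2 : p ≠ 2 := by
    rintro rfl
    exact he1 (Nat.dvd_one.1 hedvd)
  have hp3 : 3 ≤ p := by
    have := hp.two_le
    omega
  have hNC := card_centralizer_mul_relIndex_normalizer (P : Subgroup G)
  rw [← he, hC, hPc] at hNC
  have hNn : Nat.card (Subgroup.normalizer ((P : Subgroup G) : Set G)) *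
      Nat.card (Sylow p G) = Nat.card G := by
    rw [P.card_eq_index_normalizer]
    exact Subgroup.card_mul_index _
  have hPtop := simple_sylow_ne_top hnc P
  have hPne : (P : Subgroup G) ≠ ⊥ := by
    intro h0
    rw [h0, Subgroup.card_bot] at hPc
    omega
  have hn1 : 1 ≤ n := by
    by_contra h
    have h0 : n = 0 := by omega
    subst h0
    rw [zero_mul, add_zero] at hn
    have hnorm : (P : Subgroup G).Normal := by
      rw [← Subgroup.normalizer_eq_top_iff, ← Subgroup.index_eq_one]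
      rw [P.card_eq_index_normalizer] at hn
      exact hn
    rcases hnorm.eq_bot_or_eq_top with h1 | h1
    · exact hPne h1
    · exact hPtop h1
  have hGcard : Nat.card G = p * (e * (1 + n * p)) := by
    rw [← hNn, ← hNC, hn, mul_assoc]
  have he0 : 0 < e := Nat.pos_of_dvd_of_pos hedvd (by omega)
  have he2 : 2 ≤ e := by omega
  have hep : e < p := lt_of_le_of_lt (Nat.le_of_dvd (by omega) hedvd) (by omega)
  by_cases hn1' : n = 1
  · left
    subst hn1'
    have hcard' : Nat.card G = (p + 1) * p * e := by rw [hGcard]; ring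
    have hnp' : Nat.card (Sylow p G) = p + 1 := by rw [hn]; ring
    exact Cfsg.Agent.Helper55.BR.case_n_one hna p hp2 hnp' e he2 hep hcard'
      (fun f => Cfsg.Agent.H16.BR.not_simple_pgl hna p hp2 f)
      (fun q f hf hmem => Cfsg.Agent.H16.BR.no_simple_in_semiaffine hna f hf hmem)
  · right
    have hn2 : 2 ≤ n := by omega
    obtain ⟨t, ht⟩ := hedvd
    have het : e * t = p - 1 := ht.symm
    have ht1 : 1 ≤ t := by
      rcases Nat.eq_zero_or_pos t with h0 | h0
      · rw [h0, mul_zero] at het; omega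
      · exact h0
    -- the block data, with the extra guarantee when `t = 1`
    obtain ⟨X, Y, δ, ε, h, hguar⟩ : ∃ (X Y : Finset (IrrCharacter G))
        (δ : IrrCharacter G → ℤ) (ε : ℤ), B0Data p (P : Subgroup G) e X Y δ ε ∧
          (2 ≤ t ∨ ε = -1 ∨ ∀ χ ∈ X, χ ≠ one G → δ χ = -1) := by
      by_cases ht2 : 2 ≤ t
      · have h2e : 2 * e ≤ p - 1 := by
          rw [← het]
          nlinarith
        obtain ⟨X, Y, δ, ε, h⟩ := Cfsg.Agent.H65.BR.b0_setup hG p hp2 P hPc hC e he.symm h2e
        exact ⟨X, Y, δ, ε, h, Or.inl ht2⟩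
      · have ht1' : t = 1 := by omega
        have he' : e = p - 1 := by rw [← het, ht1', mul_one]
        obtain ⟨X, Y, δ, ε, h, hg⟩ := Cfsg.Agent.H65.BRM.b0_setup_one hG p hp2 P hPc hC
          (by rw [← he, he'])
        rw [← he'] at h
        exact ⟨X, Y, δ, ε, h, Or.inr hg⟩
    obtain ⟨f0, hf0Y, hrel, hcolY, hcolYsq⟩ :=
      Cfsg.Agent.H16.BR.col_facts p P hPc hC e X Y δ ε h
    have hdegdvd : ∀ (ψ : IrrCharacter G) (c : ℤ),
        (charDegree (ψ : G → ℂ) : ℤ) ≡ c [ZMOD p] → ¬ (p : ℤ) ∣ c →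
        charDegree (ψ : G → ℂ) ∣ e * (1 + n * p) := by
      intro ψ c hc hpc
      have h1 := Cfsg.Agent.H81.irr_charDegree_dvd ψ
      rw [hGcard] at h1
      have hcop : Nat.Coprime (charDegree (ψ : G → ℂ)) p := by
        rw [Nat.coprime_comm, hp.coprime_iff_not_dvd]
        intro hd
        apply hpc
        have h2 : (p : ℤ) ∣ (charDegree (ψ : G → ℂ) : ℤ) := by exact_mod_cast hd
        exact (Int.ModEq.dvd_iff hc).1 h2
      exact hcop.dvd_of_dvd_mul_left h1
    have hpm : ∀ c : ℤ, c = 1 ∨ c = -1 → ¬ (p : ℤ) ∣ c := by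
      intro c hc hd
      have h1 : (p : ℤ) ∣ 1 := by
        rcases hc with rfl | rfl
        · exact hd
        · simpa using hd
      have h2 := Int.le_of_dvd one_pos h1
      have h3 : (3 : ℤ) ≤ p := by exact_mod_cast hp3
      omega
    have hsq1 : ∀ ψ : IrrCharacter G,
        charDegree (ψ : G → ℂ) ^ 2 ≤ p * (e * (1 + n * p)) := by
      intro ψ
      rw [← hGcard]
      have h1 := sum_deg_sq_le (G := G) {ψ}
      rwa [Finset.sum_singleton] at h1
    have hplus : ∀ χ ∈ X, χ ≠ one G → δ χ = 1 → charDegree (χ : G → ℂ) = 1 + n * p := by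
      intro χ hχ hχ1 hδ
      have hmod := h.deg_X χ hχ
      rw [hδ] at hmod
      exact Cfsg.Agent.H35.BRM.nd_plus p e t n _ hp het hND (h.two_le_X χ hχ hχ1)
        (hdegdvd χ 1 hmod (hpm 1 (Or.inl rfl))) hmod
    have hminus : ∀ χ ∈ X, δ χ = -1 → charDegree (χ : G → ℂ) = p - 1 := by
      intro χ hχ hδ
      have hmod := h.deg_X χ hχ
      rw [hδ] at hmod
      exact Cfsg.Agent.H35.BRM.nd_minus p e t n _ hp hp2 het hn1 hND
        (hdegdvd χ (-1) hmod (hpm (-1) (Or.inr rfl))) hmod (hsq1 χ)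
    have hYcard : Y.card = t := card_Y h t het he0
    obtain ⟨θ₀, hθ₀⟩ : Y.Nonempty := by
      rw [← Finset.card_pos, hYcard]; exact ht1
    have hf0two : 2 ≤ f0 := by
      rw [← hf0Y θ₀ hθ₀]
      exact h.two_le_Y θ₀ hθ₀
    have hεe : ¬ (p : ℤ) ∣ ε * (e : ℤ) := by
      intro hd
      have h1 : (p : ℤ) ∣ (e : ℤ) := by
        rcases h.ε_pm with h2 | h2
        · rw [h2, one_mul] at hd; exact hd
        · rw [h2, neg_one_mul, dvd_neg] at hd; exact hd
      have h2 : p ∣ e := by exact_mod_cast h1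
      have := Nat.le_of_dvd he0 h2
      omega
    have hf0dvd : f0 ∣ e * (1 + n * p) := by
      rw [← hf0Y θ₀ hθ₀]
      exact hdegdvd θ₀ _ (h.deg_Y θ₀ hθ₀) hεe
    have hf0mod : (f0 : ℤ) ≡ ε * (e : ℤ) [ZMOD p] := by
      rw [← hf0Y θ₀ hθ₀]
      exact h.deg_Y θ₀ hθ₀
    have hsq : t * f0 ^ 2 ≤ p * (e * (1 + n * p)) := by
      rw [← hGcard]
      have h1 := sum_deg_sq_le (G := G) Y
      rw [Finset.sum_congr rfl (fun θ hθ => by rw [hf0Y θ hθ]), Finset.sum_const, hYcard,
        smul_eq_mul] at h1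
      exact h1
    have hexc := Cfsg.Agent.H35.BRM.nd_exc p e t n f0 ε hp hp2 het hn1 hND h.ε_pm hf0two
      hf0dvd hf0mod hsq
    have hAB := Cfsg.Agent.H86.BRM.nd_main p e t n hp hp2 het he2 hn1 X (one G) h.one_mem
      h.cardX (fun ψ => charDegree (ψ : G → ℂ)) δ f0 ε h.δ_pm (charDegree_one' G) h.δ_one
      hplus hminus hexc hrel
    have hplus3 : ∀ χ ∈ plusSet X δ, charDegree (χ : G → ℂ) = 1 + n * p := by
      intro χ hχ
      rw [mem_plusSet] at hχ
      exact hplus χ hχ.1 hχ.2.1 hχ.2.2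
    have hminus3 : ∀ χ ∈ minusSet X δ, charDegree (χ : G → ℂ) = p - 1 := by
      intro χ hχ
      rw [mem_minusSet] at hχ
      exact hminus χ hχ.1 hχ.2
    have hpe : plusSet X δ = X.filter (fun χ => χ ≠ one G ∧ δ χ = 1) := by
      ext χ
      rw [mem_plusSet, Finset.mem_filter]
    rw [← hpe] at hAB
    rcases hAB with ⟨hε, hf0e, hcA⟩ | ⟨hε, w, hw1, hnw, hf0w, hcw⟩
    · -- type A
      exfalso
      rcases hguar with ht2 | hε' | hall
      · exact Cfsg.Agent.H4.BRM.typeA_false_nd p hp2 P hPc hC e t n het he2 ht2 hn2 X Y δ ε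
          h hplus3 hminus3 hε (fun θ hθ => by rw [hf0Y θ hθ, hf0e]) hcolY hcolYsq
      · rw [hε] at hε'
        norm_num at hε'
      · have h0 : (plusSet X δ).card = 0 := by
          rw [Finset.card_eq_zero, Finset.eq_empty_iff_forall_notMem]
          intro χ hχ
          rw [mem_plusSet] at hχ
          have := hall χ hχ.1 hχ.2.1
          rw [hχ.2.2] at this
          norm_num at this
        rw [h0, zero_mul] at hcA
        omega
    · -- type B with parameter `w`
      have hGB : Nat.card G = p * (p - 1) * (w * p - e) := by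
        rw [hGcard, ← hf0w, mul_assoc]
        congr 1
        rcases hexc with ⟨h1, -⟩ | ⟨-, h1⟩
        · rw [hε] at h1; norm_num at h1
        · rw [← het, ← h1]; ring
      have hBw : TypeBw p e t w n X Y δ ε :=
        { het := het
          he2 := he2
          ht1 := ht1
          hw1 := hw1
          hn := hnw
          hε := hε
          deg_plus := hplus3
          deg_minus := hminus3
          deg_Y := fun θ hθ => by rw [hf0Y θ hθ, hf0w]
          card_plus := hcw
          card_G := hGB }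
      obtain ⟨Z, hZ⟩ := exists_out X Y
      have hsqZ := Cfsg.Agent.H69.BR.sum_out_sq_w p hp2 (P : Subgroup G) e t w n X Y δ ε h
        hBw Z hZ
      have hout : ∀ g ∈ Subgroup.normalizer ((P : Subgroup G) : Set G), g ∉ (P : Subgroup G) →
          ∀ ψ ∈ Z, (charDegree (ψ : G → ℂ) : ℂ) = (p : ℂ) * (ψ : G → ℂ) g := by
        intro g hgN hgP
        obtain ⟨hg1, hgp, hgnorm, hgfpf⟩ :=
          Cfsg.Agent.H27.BRM.normalizer_elt_facts p P hPc hC g hgN hgP
        exact Cfsg.Agent.H19.BRM.out_vals p hp2 P hPc e t w n X Y δ ε h hBw Z hZ hsqZ g hg1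
          hgp (fun ψ hψ => Cfsg.Agent.H19.BRM.frob_bound p (P : Subgroup G) hPc g hgnorm
            hgfpf ψ hψ)
      have hfix : ∀ s ∈ Subgroup.normalizer ((P : Subgroup G) : Set G), s ∉ (P : Subgroup G) →
          Nat.card {Q : Sylow p G // s ∈ Subgroup.normalizer ((Q : Subgroup G) : Set G)} =
            n + 1 := fun s hsN hsP =>
        Cfsg.Agent.H4.BRM.fix_count p hp2 P hPc e n hNC.symm hn X Y δ ε h Z hZ hsqZ hout
          s hsN hsP
      have hdvdG := Cfsg.Agent.H27.BRM.card_normalizer_complement_dvd p P hPc hC e n he2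
        hNC.symm hfix
      rw [hGB] at hdvdG
      have hw : w = 1 := Cfsg.Agent.H69.BR.w_eq_one p e t w n (plusSet X δ).card hp het
        he2 hw1 hnw hcw hdvdG
      subst hw
      rw [mul_one] at hnw
      rw [one_mul] at hf0w hcw hGB
      have ht3 : 3 ≤ t := by omega
      have hB : TypeB p e t X Y δ ε :=
        { het := het
          he2 := he2
          ht2 := by omega
          hε := hε
          deg_plus := fun χ hχ => by
            rw [hplus3 χ hχ]
            have h1 : (e : ℤ) * (t : ℤ) = (p : ℤ) - 1 := by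
              have h2 := het
              zify [hp.one_le] at h2
              exact h2
            have h3 : (n : ℤ) + 1 = t := by exact_mod_cast hnw
            zify [hep.le]
            have h4 : (n : ℤ) = t - 1 := by linarith
            rw [h4]
            linear_combination h1
          deg_minus := hminus3
          deg_Y := fun θ hθ => by rw [hf0Y θ hθ, hf0w]
          card_plus := by omega
          card_G := hGB }
      exact typeB_sl2 p hp2 P hPc hC e t hNC X Y δ ε h hB ht3 hcolY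

end Cfsg.Agent.H21.BR
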