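import Mathlib
import Cfsg.Prelude.Def_Blocks
import Cfsg.Prelude.Def_Characters
import Cfsg.Agent.H21.BRDefs
import Cfsg.Agent.H21.E2Block
import Cfsg.Agent.S4441
import Cfsg.Agent.S0907
import Cfsg.Agent.H81.ClassSum
import Cfsg.Agent.H81.Degree
import Cfsg.Agent.H82.Irr
import Cfsg.Agent.H4.IrrCount

/-!
# S4700-DEG (helper21): the degrees of the principal `p`-block of a group with a Sylow
`p`-subgroup of order `p` divide `e (1 + n p)`

No hypothesis `C(P) = P`.  From `S4441`, weak block orthogonality `S0907` and the integrality of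
central characters.
-/

set_option autoImplicit false
set_option linter.style.haveILetI false

namespace Cfsg.Agent.H21.BRQ

open Cfsg Cfsg.Agent.H21.BR
open scoped ComplexConjugate

/-- Integrality of the central character of an irreducible character. -/
theorem irr_centralChar_isIntegral {G : Type*} [Group G] [Finite G] (ψ : IrrCharacter G)
    (g : G) :
    IsIntegral ℤ (((Subgroup.centralizer ({g} : Set G)).index : ℂ) * (ψ : G → ℂ) g /
      (charDegree (ψ : G → ℂ) : ℂ)) := by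
  classical
  letI : Fintype G := Fintype.ofFinite G
  obtain ⟨n, ρ, hirr, hρ, -, h1, -⟩ := Cfsg.Agent.H82.irr_rep ψ
  haveI := hirr
  have h := Cfsg.Agent.H81.centralChar_isIntegral ρ g
  rw [hρ] at h
  rw [← (Cfsg.Agent.H81.irr_charDegree ψ).1]
  exact h

theorem b0_degrees {G : Type*} [Group G] [Finite G] (p : ℕ) [Fact p.Prime] (hp2 : p ≠ 2)
    (M : Ideal Cfsg.AlgInt) (hM : Cfsg.IsPModular p M)
    (P : Sylow p G) (hP : Nat.card (P : Subgroup G) = p) (e : ℕ)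
    (he : (Subgroup.centralizer ((P : Subgroup G) : Set G)).relIndex
      (Subgroup.normalizer ((P : Subgroup G) : Set G)) = e) (hedvd : e ∣ p - 1)
    (n : ℕ) (hn : Nat.card (Sylow p G) = 1 + n * p) :
    ∃ (X Y : Finset (IrrCharacter G)) (δ : IrrCharacter G → ℤ) (ε : ℤ),
      (∀ ψ : IrrCharacter G, ψ ∈ principalBlock M G ↔ ψ ∈ X ∨ ψ ∈ Y) ∧
      Disjoint X Y ∧ X.card = e ∧ Y.card * e = p - 1 ∧
      (∀ χ ∈ X, δ χ = 1 ∨ δ χ = -1) ∧
      (∀ χ ∈ X, (charDegree (χ : G → ℂ) : ℤ) ≡ δ χ [ZMOD p]) ∧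
      (∀ χ ∈ X, ∀ x ∈ (P : Subgroup G), x ≠ 1 → (χ : G → ℂ) x = (δ χ : ℂ)) ∧
      (ε = 1 ∨ ε = -1) ∧
      (∀ θ ∈ Y, (charDegree (θ : G → ℂ) : ℤ) ≡ ε * (e : ℤ) [ZMOD p]) ∧
      (∀ θ ∈ Y, ∀ θ' ∈ Y, charDegree (θ : G → ℂ) = charDegree (θ' : G → ℂ)) ∧
      (∀ θ ∈ Y, ε * (charDegree (θ : G → ℂ) : ℤ) =
        ∑ χ ∈ X, δ χ * (charDegree (χ : G → ℂ) : ℤ)) ∧
      (∀ x ∈ (P : Subgroup G), x ≠ 1 → ∑ θ ∈ Y, (θ : G → ℂ) x = -(ε : ℂ)) ∧
      (∀ χ ∈ X, charDegree (χ : G → ℂ) ∣ e * (1 + n * p)) ∧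
      (∀ θ ∈ Y, charDegree (θ : G → ℂ) ∣ e * (1 + n * p)) := by
  classical
  have hp : p.Prime := Fact.out
  have hp3 : 3 ≤ p := by
    have := hp.two_le
    omega
  let _ : Fintype G := Fintype.ofFinite G
  have := Cfsg.Agent.H4.finite_irr G
  obtain ⟨X, Y, hB, hdisj, hX, hY, εX, ε, hXp, hε, hYdeg, hYeq, hYsum⟩ :=
    Cfsg.Agent.S4441.result p M hM hp2 P hP e he
  rw [Nat.card_coe_set_eq] at hX hY
  have hXfin : X.Finite := Set.toFinite _
  have hYfin : Y.Finite := Set.toFinite _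
  have hval1 : ∀ ζ : IrrCharacter G, (ζ : G → ℂ) 1 = (charDegree (ζ : G → ℂ) : ℂ) :=
    fun ζ => (Cfsg.Agent.H81.irr_charDegree ζ).1
  have hpos : ∀ ζ : IrrCharacter G, 0 < charDegree (ζ : G → ℂ) :=
    fun ζ => (Cfsg.Agent.H81.irr_charDegree ζ).2
  have hreg1 : ¬ p ∣ orderOf (1 : G) := by
    rw [orderOf_one]; exact hp.not_dvd_one
  have he0 : 0 < e := Nat.pos_of_dvd_of_pos hedvd (by omega)
  -- the finsets
  obtain ⟨Xf, hXf⟩ : ∃ Xf : Finset (IrrCharacter G), Xf = hXfin.toFinset := ⟨_, rfl⟩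
  obtain ⟨Yf, hYf⟩ : ∃ Yf : Finset (IrrCharacter G), Yf = hYfin.toFinset := ⟨_, rfl⟩
  have hmX : ∀ ψ, ψ ∈ Xf ↔ ψ ∈ X := fun ψ => by rw [hXf, Set.Finite.mem_toFinset]
  have hmY : ∀ ψ, ψ ∈ Yf ↔ ψ ∈ Y := fun ψ => by rw [hYf, Set.Finite.mem_toFinset]
  have hdisjf : Disjoint Xf Yf := by
    rw [hXf, hYf, Set.Finite.disjoint_toFinset]
    exact hdisj
  have hcXf : Xf.card = e := by
    rw [hXf, ← Set.ncard_eq_toFinset_card _ hXfin, hX]
  have hcYf : Yf.card * e = p - 1 := by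
    rw [hYf, ← Set.ncard_eq_toFinset_card _ hYfin, hY]
    exact Nat.div_mul_cancel hedvd
  have hYne : Yf.Nonempty := by
    rw [← Finset.card_pos]
    by_contra h0
    have h1 : Yf.card = 0 := by omega
    rw [h1, zero_mul] at hcYf
    omega
  obtain ⟨θ₀, hθ₀⟩ := hYne
  -- degrees on `Y` agree
  have hYdegeq : ∀ θ ∈ Yf, ∀ θ' ∈ Yf,
      charDegree (θ : G → ℂ) = charDegree (θ' : G → ℂ) := by
    intro θ hθ θ' hθ'
    have h1 := hYeq θ ((hmY θ).1 hθ) θ' ((hmY θ').1 hθ') 1 hreg1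
    rw [hval1, hval1] at h1
    exact_mod_cast h1
  -- the relation at `1`
  have hrelC : ∀ θ ∈ Yf, (ε : ℂ) * (charDegree (θ : G → ℂ) : ℂ) =
      ∑ χ ∈ Xf, (εX χ : ℂ) * (charDegree (χ : G → ℂ) : ℂ) := by
    intro θ hθ
    have h1 := hYsum θ ((hmY θ).1 hθ) 1 hreg1
    rw [finsum_mem_eq_finite_toFinset_sum _ hXfin, ← hXf, hval1] at h1
    rw [h1]
    exact Finset.sum_congr rfl (fun χ _ => by rw [hval1])
  have hrel : ∀ θ ∈ Yf, ε * (charDegree (θ : G → ℂ) : ℤ) =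
      ∑ χ ∈ Xf, εX χ * (charDegree (χ : G → ℂ) : ℤ) := by
    intro θ hθ
    have h1 := hrelC θ hθ
    exact_mod_cast h1
  -- values of `X` on `P \ 1`
  have hvalX : ∀ χ ∈ Xf, ∀ x ∈ (P : Subgroup G), x ≠ 1 → (χ : G → ℂ) x = (εX χ : ℂ) := by
    intro χ hχ x hx hx1
    have := (hXp χ ((hmX χ).1 hχ)).2.2 x hx hx1 1 (Subgroup.one_mem _) hreg1
    rwa [mul_one] at this
  -- the column sum over `Y`
  have hcol : ∀ x ∈ (P : Subgroup G), x ≠ 1 → ∑ θ ∈ Yf, (θ : G → ℂ) x = -(ε : ℂ) := by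
    intro x hx hx1
    have hord : orderOf x = p :=
      Cfsg.Agent.H21.orderOf_eq_of_mem_card_prime hp (P : Subgroup G) hP x hx hx1
    have hBl : IsPBlock M (principalBlock M G) := ⟨one G, rfl⟩
    have h1 := Cfsg.Agent.S0907.result p M hM (principalBlock M G) hBl 1 x hreg1
      (by rw [hord])
    have hBfin : (principalBlock M G).Finite := Set.toFinite _
    rw [finsum_mem_eq_finite_toFinset_sum _ hBfin] at h1
    have hBf : hBfin.toFinset = Xf ∪ Yf := by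
      ext ψ
      rw [Set.Finite.mem_toFinset, Finset.mem_union, hmX, hmY, hB]
      rfl
    rw [hBf, Finset.sum_union hdisjf] at h1
    have h2 : ∑ χ ∈ Xf, (χ : G → ℂ) 1 * conj ((χ : G → ℂ) x) =
        (ε : ℂ) * (charDegree (θ₀ : G → ℂ) : ℂ) := by
      rw [hrelC θ₀ hθ₀]
      apply Finset.sum_congr rfl
      intro χ hχ
      rw [hvalX χ hχ x hx hx1, hval1]
      have : conj ((εX χ : ℤ) : ℂ) = ((εX χ : ℤ) : ℂ) := by
        rw [← Complex.ofReal_intCast, Complex.conj_ofReal]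
      rw [this, mul_comm]
    have h3 : ∑ θ ∈ Yf, (θ : G → ℂ) 1 * conj ((θ : G → ℂ) x) =
        (charDegree (θ₀ : G → ℂ) : ℂ) * conj (∑ θ ∈ Yf, (θ : G → ℂ) x) := by
      rw [map_sum, Finset.mul_sum]
      apply Finset.sum_congr rfl
      intro θ hθ
      rw [hval1, hYdegeq θ hθ θ₀ hθ₀]
    rw [h2, h3] at h1
    have hne : (charDegree (θ₀ : G → ℂ) : ℂ) ≠ 0 := by
      have := hpos θ₀
      exact_mod_cast this.ne'
    have h4 : conj (∑ θ ∈ Yf, (θ : G → ℂ) x) = -(ε : ℂ) := by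
      have h5 : (charDegree (θ₀ : G → ℂ) : ℂ) *
          ((ε : ℂ) + conj (∑ θ ∈ Yf, (θ : G → ℂ) x)) = 0 := by
        linear_combination h1
      rcases mul_eq_zero.1 h5 with h6 | h6
      · exact absurd h6 hne
      · linear_combination h6
    have h5 := congrArg conj h4
    rw [Complex.conj_conj] at h5
    rw [h5, map_neg]
    congr 1
    rw [← Complex.ofReal_intCast, Complex.conj_ofReal]
  -- the class size of `x ∈ P \ 1`
  obtain ⟨x, hx, hx1⟩ : ∃ x ∈ (P : Subgroup G), x ≠ 1 := by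
    by_contra hcon
    push Not at hcon
    have hbot : (P : Subgroup G) = ⊥ := by
      rw [eq_bot_iff]
      intro y hy
      rw [Subgroup.mem_bot]
      exact hcon y hy
    rw [hbot, Subgroup.card_bot] at hP
    omega
  have hidx : (Subgroup.centralizer ({x} : Set G)).index = e * (1 + n * p) := by
    rw [Cfsg.Agent.H21.E2Block.centralizer_singleton_eq p P hP x hx hx1,
      ← Subgroup.relIndex_mul_index (Subgroup.centralizer_le_normalizer _), he]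
    congr 1
    rw [← hn]
    exact (P.card_eq_index_normalizer).symm
  have hdvdX : ∀ χ ∈ Xf, charDegree (χ : G → ℂ) ∣ e * (1 + n * p) := by
    intro χ hχ
    have h1 := irr_centralChar_isIntegral χ x
    rw [hidx, hvalX χ hχ x hx hx1] at h1
    rcases (hXp χ ((hmX χ).1 hχ)).1 with h2 | h2
    · rw [h2] at h1
      apply Cfsg.Agent.H81.nat_dvd_of_isIntegral_div (hpos χ).ne'
      simpa using h1
    · rw [h2] at h1
      apply Cfsg.Agent.H81.nat_dvd_of_isIntegral_div (hpos χ).ne'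
      have h3 : ((e * (1 + n * p) : ℕ) : ℂ) / (charDegree (χ : G → ℂ) : ℂ) =
          -(((e * (1 + n * p) : ℕ) : ℂ) * ((-1 : ℤ) : ℂ) / (charDegree (χ : G → ℂ) : ℂ)) := by
        push_cast
        ring
      rw [h3]
      exact h1.neg
  have hdvdY : ∀ θ ∈ Yf, charDegree (θ : G → ℂ) ∣ e * (1 + n * p) := by
    intro θ hθ
    rw [hYdegeq θ hθ θ₀ hθ₀]
    have h1 : IsIntegral ℤ (∑ θ' ∈ Yf,
        (((Subgroup.centralizer ({x} : Set G)).index : ℂ) * (θ' : G → ℂ) x /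
          (charDegree (θ' : G → ℂ) : ℂ))) :=
      IsIntegral.sum _ (fun θ' _ => irr_centralChar_isIntegral θ' x)
    have h2 : ∑ θ' ∈ Yf,
        (((Subgroup.centralizer ({x} : Set G)).index : ℂ) * (θ' : G → ℂ) x /
          (charDegree (θ' : G → ℂ) : ℂ)) =
        ((e * (1 + n * p) : ℕ) : ℂ) * (-(ε : ℂ)) / (charDegree (θ₀ : G → ℂ) : ℂ) := by
      rw [← hcol x hx hx1, Finset.mul_sum, Finset.sum_div]
      apply Finset.sum_congr rfl
      intro θ' hθ'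
      rw [hidx, hYdegeq θ' hθ' θ₀ hθ₀]
    rw [h2] at h1
    apply Cfsg.Agent.H81.nat_dvd_of_isIntegral_div (hpos θ₀).ne'
    rcases hε with h3 | h3
    · rw [h3] at h1
      have h4 : ((e * (1 + n * p) : ℕ) : ℂ) / (charDegree (θ₀ : G → ℂ) : ℂ) =
          -(((e * (1 + n * p) : ℕ) : ℂ) * (-((1 : ℤ) : ℂ)) / (charDegree (θ₀ : G → ℂ) : ℂ)) := by
        push_cast
        ring
      rw [h4]
      exact h1.neg
    · rw [h3] at h1
      have h4 : ((e * (1 + n * p) : ℕ) : ℂ) / (charDegree (θ₀ : G → ℂ) : ℂ) =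
          ((e * (1 + n * p) : ℕ) : ℂ) * (-((-1 : ℤ) : ℂ)) / (charDegree (θ₀ : G → ℂ) : ℂ) := by
        push_cast
        ring
      rw [h4]
      exact h1
  refine ⟨Xf, Yf, εX, ε, ?_, hdisjf, hcXf, hcYf, ?_, ?_, hvalX, hε, ?_, hYdegeq, hrel, hcol,
    hdvdX, hdvdY⟩
  · intro ψ
    rw [hmX, hmY, hB]
    rfl
  · intro χ hχ
    exact (hXp χ ((hmX χ).1 hχ)).1
  · intro χ hχ
    exact (hXp χ ((hmX χ).1 hχ)).2.1
  · intro θ hθ
    exact hYdeg θ ((hmY θ).1 hθ)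

end Cfsg.Agent.H21.BRQ
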