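import Cfsg.Agent.H21.BRDefs
import Cfsg.Agent.H21.BRSplit
import Cfsg.Agent.H21.SimpleTools
import Cfsg.Agent.H81.Reg
import Cfsg.Agent.H4.IrrCount
import Cfsg.Agent.H16.BRN1A
import Cfsg.Agent.H16.BRN1B
import Cfsg.Agent.H16.BRCol
import Cfsg.Agent.H71.BRArith1
import Cfsg.Agent.H71.BRArith2
import Cfsg.Agent.H8.BRC2A
import Cfsg.Agent.H8.BRC2C
import Cfsg.Agent.H62.BRC2B
import Cfsg.Agent.H62.BRC2D
import Cfsg.Agent.H62.BRTBG1
import Cfsg.Agent.H62.BRTBDih
import Cfsg.Agent.H40.BRTBFin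
import Cfsg.Agent.H40.BRTBG3
import Cfsg.Agent.H40.BRTBG2
import Cfsg.Agent.H62.BRTBC1
import Cfsg.Agent.H16.BRTypeA
import Cfsg.Agent.H65.BRSetup
import Cfsg.Agent.H36.BRTBC2
import Cfsg.Agent.H69.BRTBC3
import Cfsg.Agent.H69.BRTBSQ
import Cfsg.Agent.Helper55.BRN1
import Cfsg.Agent.H80.BRC1

/-!
# Brauer–Reynolds: the "type B" tail (from `B0Data` + `TypeB` to `SL(2, 2^a)`)

Extracted from the proof of S0999 for reuse in the master theorem (S0996 / S4700).
-/

set_option autoImplicit false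

namespace Cfsg.Agent.H21.BR

open Cfsg Cfsg.Agent.H21

/-- Type B with `t ≥ 3` forces `G ≅ SL(2, 2^a)` with `p = 2^a + 1`. -/
theorem typeB_sl2 {G : Type*} [Group G] [Finite G] [IsSimpleGroup G]
    (p : ℕ) [Fact p.Prime] (hp2 : p ≠ 2) (P : Sylow p G)
    (hPc : Nat.card (P : Subgroup G) = p)
    (hC : Subgroup.centralizer ((P : Subgroup G) : Set G) = (P : Subgroup G))
    (e t : ℕ) (hNC : p * e = Nat.card (Subgroup.normalizer ((P : Subgroup G) : Set G)))
    (X Y : Finset (IrrCharacter G)) (δ : IrrCharacter G → ℤ) (ε : ℤ)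
    (h : B0Data p (P : Subgroup G) e X Y δ ε) (hB : TypeB p e t X Y δ ε) (ht3 : 3 ≤ t)
    (hcolY : ∀ x ∈ (P : Subgroup G), x ≠ 1 → ∑ θ ∈ Y, (θ : G → ℂ) x = -(ε : ℂ)) :
    ∃ (a : ℕ) (F : Type) (_ : Field F) (_ : Fintype F), Fintype.card F = 2 ^ a ∧
      p = 2 ^ a + 1 ∧ 3 < p ∧ Nonempty (G ≃* Matrix.SpecialLinearGroup (Fin 2) F) := by
  classical
  have hp : p.Prime := Fact.out
  have het := hB.het
  have he2 := hB.he2
  have hcp := hB.card_plus
  have hPne : (P : Subgroup G) ≠ ⊥ := by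
    intro h0
    rw [h0, Subgroup.card_bot] at hPc
    have := hp.two_le
    omega
  -- `e` is even
  have hev : Even e := by
    by_contra hodd
    rw [Nat.not_even_iff_odd] at hodd
    have hpodd : Odd p := hp.odd_of_ne_two hp2
    have h1 : Even (e * t) := by
      rw [het]
      exact Nat.Odd.sub_odd hpodd odd_one
    have h2 : Even t := by
      rcases Nat.even_mul.1 h1 with h3 | h3
      · exact absurd h3 (Nat.not_even_iff_odd.2 hodd)
      · exact h3
    have h3 : Even ((plusSet X δ).card * t) := Nat.even_mul.2 (Or.inr h2)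
    rw [hcp] at h3
    have h4 : Odd (e - 2) := by
      obtain ⟨j, hj⟩ := hodd
      exact ⟨j - 1, by omega⟩
    exact (Nat.not_even_iff_odd.2 h4) h3
  obtain ⟨τ, hτ, hinv⟩ := Cfsg.Agent.H62.BR.exists_inverting_involution p hp2 P hPc hC e
    hNC.symm hev
  have hdih := fun (ψ : G → ℂ) (hψ : IsCharacter G ψ) =>
    Cfsg.Agent.H62.BR.dihedral_bound p hp2 (P : Subgroup G) hPc τ hτ hinv ψ hψ
  obtain ⟨Z, hZ⟩ := exists_out X Y
  have hsqZ := Cfsg.Agent.H69.BR.sum_out_sq p hp2 (P : Subgroup G) e t X Y δ ε h hB Z hZ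
  obtain ⟨s, hv⟩ := Cfsg.Agent.H62.BR.tau_vals p hp2 P hPc hC e t X Y δ ε h hB Z hZ hsqZ
    τ hτ hinv hcolY hdih
  obtain ⟨x, hx, hx1⟩ : ∃ x ∈ (P : Subgroup G), x ≠ 1 := by
    by_contra hcon
    push Not at hcon
    exact hPne ((Subgroup.eq_bot_iff_forall _).2 hcon)
  have hcount := Cfsg.Agent.H40.BRG2.card_pairs_eq p hp2 P hPc hC τ hτ hinv x hx hx1
  obtain ⟨hCτ, hs, hpl⟩ := Cfsg.Agent.H36.BR.card_centralizer_tau p hp2 P hPc e t X Y δ ε
    h hB Z hZ hsqZ τ hτ s hv hcolY x hx hx1 hcount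
  have hcτ := Cfsg.Agent.H69.BR.card_pairs_tau p hp2 P hPc e t X Y δ ε h hB Z hZ hsqZ
    τ hτ s hv hs hpl
  obtain ⟨hRc, hRcyc⟩ := Cfsg.Agent.H40.BRG3.centralizer_inf_normalizer p hp2 P hPc hC τ hτ
    hinv e hNC.symm
  have hte : t * e = p - 1 := by rw [mul_comm]; exact het
  have hτ2 : τ * τ = 1 := by
    have := pow_orderOf_eq_one τ
    rwa [hτ, pow_two] at this
  have hτinv : τ⁻¹ = τ := inv_eq_of_mul_eq_one_left hτ2
  have hτR : τ ∈ Subgroup.centralizer ({τ} : Set G) ⊓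
      Subgroup.normalizer ((P : Subgroup G) : Set G) := by
    refine Subgroup.mem_inf.2 ⟨?_, ?_⟩
    · rw [Subgroup.mem_centralizer_singleton_iff]
    · rw [Subgroup.mem_normalizer_iff]
      intro y
      constructor
      · intro hy
        rw [hinv y hy]
        exact inv_mem hy
      · intro hy
        have h1 := hinv _ hy
        have h2 : τ * (τ * y * τ⁻¹) * τ⁻¹ = y := by
          rw [hτinv]
          calc τ * (τ * y * τ) * τ = (τ * τ) * y * (τ * τ) := by group
            _ = y := by rw [hτ2]; group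
        rw [h2] at h1
        rw [h1]
        exact inv_mem hy
  have hCτ' : Nat.card (Subgroup.centralizer ({τ} : Set G)) = t * e := by rw [hCτ, hte]
  have hcτ' : Nat.card {ab : G × G // ab.1 * τ * ab.1⁻¹ * (ab.2 * τ⁻¹ * ab.2⁻¹) = τ} =
      (t * e) ^ 2 * (t * e - e) := by rw [hcτ, hte]
  obtain ⟨he2', hexp, hconj⟩ := Cfsg.Agent.H40.BRFin.tau_centralizer_structure τ hτ e t ht3
    hCτ' _ inf_le_left hτR hRc hRcyc hcτ'
  have hp5 : 5 ≤ p := by
    rw [he2'] at het
    omega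
  have hcard2 : Nat.card G = p * (p - 1) * (p - 2) := by
    rw [hB.card_G, he2']
  obtain ⟨hn2S, hS⟩ := Cfsg.Agent.H8.BR.sylow_two_structure p hp hp5 hcard2 τ hτ hCτ
    hexp hconj
  haveI : FaithfulSMul G (Sylow 2 G) := by
    have hker : (MulAction.toPermHom G (Sylow 2 G)).ker = ⊥ := by
      rcases (MonoidHom.normal_ker (MulAction.toPermHom G (Sylow 2 G))).eq_bot_or_eq_top
        with h0 | h0
      · exact h0
      · exfalso
        have hfixall : ∀ (g : G) (S : Sylow 2 G), g • S = S := by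
          intro g S
          have hg : g ∈ (MulAction.toPermHom G (Sylow 2 G)).ker := h0 ▸ Subgroup.mem_top g
          rw [MonoidHom.mem_ker] at hg
          have := congrArg (fun σ : Equiv.Perm (Sylow 2 G) => σ S) hg
          simpa using this
        have hsub : Subsingleton (Sylow 2 G) := by
          constructor
          intro S S'
          obtain ⟨g, hg⟩ := MulAction.exists_smul_eq G S S'
          rw [hfixall g S] at hg
          exact hg
        have h1 : Nat.card (Sylow 2 G) ≤ 1 := Finite.card_le_one_iff_subsingleton.2 hsub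
        omega
    constructor
    intro g₁ g₂ hg
    have h1 : g₂⁻¹ * g₁ ∈ (MulAction.toPermHom G (Sylow 2 G)).ker := by
      rw [MonoidHom.mem_ker]
      ext S
      simp only [MulAction.toPermHom_apply, MulAction.toPerm_apply, Equiv.Perm.coe_one, id_eq]
      rw [mul_smul, hg S, inv_smul_smul]
    rw [hker, Subgroup.mem_bot] at h1
    exact (inv_mul_eq_one.1 h1).symm
  letI : Fintype (Sylow 2 G) := Fintype.ofFinite _
  have hcardα : Fintype.card (Sylow 2 G) = p := by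
    rw [← Nat.card_eq_fintype_card, hn2S]
  obtain ⟨a, ha1, hpa, F, instF, instFt, hF, ⟨iso⟩⟩ :=
    Cfsg.Agent.H8.BR.sl2_of_sharp (G := G) (α := Sylow 2 G) (by rw [hcardα]; omega)
      (by rw [hcardα]; exact hp.odd_of_ne_two hp2) (by rw [hcardα]; exact hcard2)
      (fun g S₁ S₂ S₃ h12 h13 h23 h1 h2 h3 =>
        Cfsg.Agent.H62.BR.fix_three_sylow p hp5 hn2S hS g S₁ S₂ S₃ h12 h13 h23 h1 h2 h3)
  letI := instF
  letI := instFt
  rw [hcardα] at hpa
  exact ⟨a, F, instF, instFt, hF, hpa, by omega, ⟨iso⟩⟩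

end Cfsg.Agent.H21.BR
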