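import Mathlib

set_option autoImplicit false

namespace Cfsg.Agent.H21

open MulAction

/-- If a group acts on a finite set with a fixed point `x₀` and every other orbit has size
divisible by `n`, then the set has size `≡ 1 [MOD n]`. -/
theorem card_modEq_one_of_orbits {P X : Type*} [Group P] [MulAction P X] [Finite X] (n : ℕ) (x₀ : X)
    (h0 : ∀ g : P, g • x₀ = x₀)
    (h : ∀ x : X, x ≠ x₀ → n ∣ Nat.card (MulAction.orbit P x)) :
    Nat.card X ≡ 1 [MOD n] := by
  classical
  have := Fintype.ofFinite X
  rw [Nat.card_congr (Equiv.sigmaFiberEquiv (@Quotient.mk'' _ (MulAction.orbitRel P X))).symm,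
    Nat.card_sigma]
  have hfib : ∀ x : X, Nat.card {y : X // (Quotient.mk'' y : Quotient (MulAction.orbitRel P X)) = Quotient.mk'' x}
      = Nat.card (MulAction.orbit P x) := by
    intro x
    apply Nat.card_congr
    refine Equiv.subtypeEquivRight ?_
    intro y
    rw [Quotient.eq'']
    rfl
  rw [← Finset.add_sum_erase _ _ (Finset.mem_univ (Quotient.mk'' x₀ : Quotient (MulAction.orbitRel P X)))]
  have h1 : Nat.card {y : X // (Quotient.mk'' y : Quotient (MulAction.orbitRel P X)) = Quotient.mk'' x₀} = 1 := by
    rw [hfib]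
    have : MulAction.orbit P x₀ = {x₀} := by
      ext y
      simp only [MulAction.mem_orbit_iff, Set.mem_singleton_iff]
      constructor
      · rintro ⟨g, rfl⟩; exact h0 g
      · rintro rfl; exact ⟨1, one_smul _ _⟩
    rw [this]; simp
  rw [h1]
  have h2 : n ∣ ∑ ω ∈ (Finset.univ : Finset (Quotient (MulAction.orbitRel P X))).erase (Quotient.mk'' x₀),
      Nat.card {y : X // (Quotient.mk'' y : Quotient (MulAction.orbitRel P X)) = ω} := by
    apply Finset.dvd_sum
    intro ω hω
    induction ω using Quotient.inductionOn' with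
    | h x =>
      rw [hfib]
      apply h
      rintro rfl
      simp at hω
  obtain ⟨c, hc⟩ := h2
  rw [hc]
  show (1 + n * c) % n = 1 % n
  rw [Nat.add_mul_mod_self_left]

end Cfsg.Agent.H21
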