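import Cfsg.Agent.H21.E2Setup
import Cfsg.Agent.S4441
import Cfsg.Agent.S0944

/-!
# Order 459648: arithmetic and assembly (helper21)
-/

set_option autoImplicit false

namespace Cfsg.Agent.H21.Ord459648

open Cfsg Cfsg.Agent.H21

/-- Divisors of `24192` congruent to `1` modulo `19`. -/
theorem dvd_24192_mod19 (n : ℕ) (hdvd : n ∣ 24192) (hmod : n % 19 = 1) :
    n = 1 ∨ n = 96 ∨ n = 1008 := by
  have key : (List.range 1274).all (fun k =>
      !decide (19 * k + 1 ∣ 24192) || decide (k = 0) || decide (k = 5) || decide (k = 53)) = true := by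
    decide +kernel
  have hle : n ≤ 24192 := Nat.le_of_dvd (by norm_num) hdvd
  have hn : n = 19 * (n / 19) + 1 := by
    have := Nat.div_add_mod n 19
    omega
  have hk := List.all_eq_true.mp key (n / 19) (List.mem_range.mpr (by omega))
  rw [← hn, Bool.or_eq_true, Bool.or_eq_true, Bool.or_eq_true, Bool.not_eq_true',
    decide_eq_false_iff_not, decide_eq_true_eq, decide_eq_true_eq, decide_eq_true_eq] at hk
  rcases hk with ((h | h) | h) | h
  · exact absurd hdvd h
  · left; omega
  · right; left; omega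
  · right; right; omega

/-- The possible orders of the centralizer of the involution. -/
theorem centralizer_arith (nH m : ℕ) (h76 : 76 ∣ m) (hm : m ∣ 456) (hmod : nH % 19 = 1)
    (hdvd : nH * m ∣ 459648) (hge : 649 ≤ nH * m) :
    (nH = 96 ∧ (m = 76 ∨ m = 228)) ∨ nH = 1008 := by
  obtain ⟨j, rfl⟩ := h76
  have hj : j ∣ 6 := by
    have : 76 * j ∣ 76 * 6 := hm
    exact (Nat.mul_dvd_mul_iff_left (by norm_num)).mp this
  have hj6 : j ≤ 6 := Nat.le_of_dvd (by norm_num) hj
  have hnH : nH ∣ 24192 := by
    have h1 : nH ∣ nH * (76 * j) := dvd_mul_right _ _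
    have h2 : nH * 19 ∣ 459648 := by
      refine dvd_trans ?_ hdvd
      exact Nat.mul_dvd_mul_left nH ⟨4 * j, by ring⟩
    have : nH * 19 ∣ 24192 * 19 := h2
    exact (Nat.mul_dvd_mul_iff_right (by norm_num)).mp this
  rcases dvd_24192_mod19 nH hnH hmod with rfl | rfl | rfl
  · exfalso; omega
  · left
    refine ⟨rfl, ?_⟩
    interval_cases j <;> first | omega | (exfalso; revert hdvd; norm_num)
  · right; rfl

end Cfsg.Agent.H21.Ord459648
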