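import Cfsg.Agent.H21.E2Setup

/-!
# No simple groups of order 612 or 960 (helper21)
-/

set_option autoImplicit false

namespace Cfsg.Agent.H21.Small

open Cfsg Cfsg.Agent.H21 Cfsg.Agent.H21.E2Block

/-- No finite simple group has order `612 = 2^2 * 3^2 * 17`. -/
theorem no_simple_612 {G : Type*} [Group G] [Finite G] [IsSimpleGroup G]
    (hcard : Nat.card G = 612) : False := by
  classical
  have hnp : ¬ (Nat.card G).Prime := by rw [hcard]; norm_num
  have hG : ¬ IsMulCommutative G := Cfsg.Agent.H21.not_comm_of_not_prime hnp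
  have hna : ∃ u v : G, u * v ≠ v * u := by
    by_contra hcon
    push Not at hcon
    exact hG ⟨⟨hcon⟩⟩
  have : Fact (Nat.Prime 17) := ⟨by norm_num⟩
  have hcard' : Nat.card G = 2 ^ 2 * 3 ^ 2 * 17 := by rw [hcard]; norm_num
  obtain ⟨M, hM⟩ := Cfsg.Agent.H78.exists_isPModular 17 (by norm_num)
  obtain ⟨χ, Y, η₁, x, y, hB, hχne, h0Y, hχY, hYn, hη₁, hout, hx1, hy1, hYeq, hxdvd, hydvd,
      hx2, hxsq, hxy⟩ := e2_setup hna 17 2 2 (by norm_num) hcard' (by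
        intro d n hd hd1 h hn
        have hd16 : d ≤ 16 := Nat.le_of_dvd (by norm_num) hd
        interval_cases d <;> omega) M hM
  rw [hcard] at hxdvd hydvd hxsq
  have hx25 : x < 25 := by nlinarith
  have key : ∀ x ∈ Finset.range 25, x ∣ 612 → 2 ≤ x →
      ((17 ∣ x - 1 → ¬ (x + 1) ∣ 612) ∧ (17 ∣ x + 1 → ¬ (x - 1) ∣ 612)) := by
    decide
  have hk := key x (Finset.mem_range.mpr hx25) hxdvd hx2
  rcases hxy with ⟨h1, h2⟩ | ⟨h1, h2⟩
  · exact hk.1 h1 (h2 ▸ hydvd)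
  · have h3 : y = x - 1 := by omega
    exact hk.2 h1 (h3 ▸ hydvd)

/-- No finite simple group has order `960 = 2^6 * 3 * 5`. -/
theorem no_simple_960 {G : Type*} [Group G] [Finite G] [IsSimpleGroup G]
    (hcard : Nat.card G = 960) : False := by
  classical
  have hnp : ¬ (Nat.card G).Prime := by rw [hcard]; norm_num
  have hG : ¬ IsMulCommutative G := Cfsg.Agent.H21.not_comm_of_not_prime hnp
  have hna : ∃ u v : G, u * v ≠ v * u := by
    by_contra hcon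
    push Not at hcon
    exact hG ⟨⟨hcon⟩⟩
  have : Fact (Nat.Prime 5) := ⟨by norm_num⟩
  have : Fact (Nat.Prime 2) := ⟨Nat.prime_two⟩
  have hcard' : Nat.card G = 2 ^ 6 * 3 ^ 1 * 5 := by rw [hcard]; norm_num
  obtain ⟨M5, hM5⟩ := Cfsg.Agent.H78.exists_isPModular 5 (by norm_num)
  obtain ⟨M2, hM2⟩ := Cfsg.Agent.H78.exists_isPModular 2 Nat.prime_two
  obtain ⟨χ, Y, η₁, x, y, hB, hχne, h0Y, hχY, hYn, hη₁, hout, hx1, hy1, hYeq, hxdvd, hydvd,
      hx2, hxsq, hxy⟩ := e2_setup hna 5 6 1 (by norm_num) hcard' (by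
        intro d n hd hd1 h hn
        have hd4 : d ≤ 4 := Nat.le_of_dvd (by norm_num) hd
        interval_cases d <;> omega) M5 hM5
  rw [hcard] at hxdvd hydvd hxsq
  have hx31 : x < 31 := by nlinarith
  have key : ∀ x ∈ Finset.range 31, x ∣ 960 → 2 ≤ x →
      ((5 ∣ x - 1 → ¬ (x + 1) ∣ 960) ∧ (5 ∣ x + 1 → (x - 1) ∣ 960 → x = 4)) := by
    decide
  have hk := key x (Finset.mem_range.mpr hx31) hxdvd hx2
  have hxy' : x = 4 ∧ y = 3 := by
    rcases hxy with ⟨h1, h2⟩ | ⟨h1, h2⟩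
    · exfalso
      exact hk.1 h1 (h2 ▸ hydvd)
    · have h3 : y = x - 1 := by omega
      have := hk.2 h1 (h3 ▸ hydvd)
      omega
  obtain ⟨hx4, hy3⟩ := hxy'
  -- weak block orthogonality for the prime 2
  obtain ⟨e, k, he, hk, heχ, hkη, hw⟩ :=
    wbo_split 5 M2 hM2 χ Y (principalBlock M5 G) hB hχne h0Y hχY hout
  have hk2 : k ≤ 2 := by rw [hYn] at hk; omega
  -- a Sylow 2-subgroup
  let S : Sylow 2 G := default
  have hS : Nat.card (S : Subgroup G) = 2 ^ 6 :=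
    Cfsg.Agent.H21.sylow_card_of_card_eq (p := 2) (k := 6) (m := 15) (by rw [hcard]; norm_num)
      (by norm_num) S
  obtain ⟨g0, hg0S, hg0⟩ : ∃ g0 ∈ (S : Subgroup G), orderOf g0 = 2 :=
    Cfsg.Agent.H21.exists_mem_orderOf_eq_prime (S : Subgroup G) 2 (by rw [hS]; norm_num)
  have hg01 : g0 ≠ 1 := by
    rintro rfl
    rw [orderOf_one] at hg0
    omega
  have hD : ∀ d : ℕ, d ∣ Nat.card (S : Subgroup G) → d * d < Nat.card (S : Subgroup G) →
      d ≤ 4 := by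
    rw [hS]
    intro d hd hdd
    have : d ≤ 7 := by nlinarith
    interval_cases d <;> omega
  have hqS : ¬ 5 ∣ Nat.card (S : Subgroup G) := by rw [hS]; norm_num
  have hfacts : ∀ g ∈ (S : Subgroup G), g ≠ 1 → 2 ∣ orderOf g ∧ ¬ 5 ∣ orderOf g :=
    fun g hg hg1 => two_elt_facts (S : Subgroup G) 6 hS 5 (by norm_num) (by norm_num) g hg hg1
  rw [hx4] at hx1
  rw [hy3] at hy1
  have he0 : e = 0 := by
    by_contra hne
    have he1 : e = 1 := by omega
    have hdeg : (χ : G → ℂ) 1 = ((2 : ℕ) : ℂ) ^ 2 := by rw [hx1]; norm_num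
    have := Cfsg.Agent.S0910.result 2 M2 hM2 hna χ (heχ he1) 2 hdeg
    exact hχne (Subtype.ext this)
  have hKg : ∀ g ∈ (S : Subgroup G), g ≠ 1 → ∃ w : ℂ, IsIntegral ℤ w ∧
      1 + ((3 * (k : ℤ) : ℤ) : ℂ) * (η₁ : G → ℂ) g = ((5 : ℕ) : ℂ) * w := by
    intro g hg hg1
    obtain ⟨h2, h5⟩ := hfacts g hg hg1
    obtain ⟨w, hw1, hw2⟩ := hw g h2 3 ((η₁ : G → ℂ) g)
      (fun η hη => ⟨hy1 η hη, hYeq η hη g h5⟩)
    refine ⟨w, hw1, ?_⟩
    rw [he0] at hw2
    push_cast at hw2 ⊢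
    linear_combination hw2
  have hη₁char := Cfsg.Agent.H4.isCharacter_of_isIrrCharacter η₁.2
  have hk012 : k = 0 ∨ k = 1 ∨ k = 2 := by omega
  rcases hk012 with hk0 | hk1 | hk2'
  · obtain ⟨w, hw1, hw2⟩ := hKg g0 hg0S hg01
    rw [hk0] at hw2
    exact not_isIntegral_one_eq_mul 5 (by norm_num) w hw1 (by
      push_cast at hw2 ⊢; linear_combination hw2)
  · -- degenerate case: `η₁` restricted to `S` is trivial
    have htriv := ResidueTrick.residue_trivial (S : Subgroup G) 5 (by norm_num) hqS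
      (η₁ : G → ℂ) hη₁char 3 (hy1 η₁ hη₁) (3 * (k : ℤ)) hKg (by rw [hk1]; norm_num)
      (by norm_num) g0 hg0S
    refine ResidueTrick.irr_apply_ne_degree η₁ ?_ g0 hg01 htriv
    rw [hy1 η₁ hη₁]
    norm_num
  · have hfin := ResidueTrick.residue_count (S : Subgroup G) 5 (by norm_num) hqS (η₁ : G → ℂ)
      hη₁char 3 (hy1 η₁ hη₁) (3 * (k : ℤ)) hKg (by rw [hk2']; norm_num) 4 hD
    rw [hS] at hfin
    omega

end Cfsg.Agent.H21.Small
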