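import Cfsg.Agent.H21.E2Wbo

/-!
# Weak block orthogonality read modulo another prime (helper21)
-/

set_option autoImplicit false
set_option linter.unusedSectionVars false
set_option linter.style.haveILetI false

namespace Cfsg.Agent.H21.Small

open Cfsg Cfsg.Agent.H21.E2Block

/-- Weak block orthogonality for the prime `p` (at `x = 1`), read modulo `q`: the characters of
the principal `p`-block that lie outside `Bq` contribute a multiple of `q`. -/
theorem wbo_mod {G : Type*} [Group G] [Finite G] (p : ℕ) [Fact p.Prime]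
    (Mp : Ideal AlgInt) (hMp : IsPModular p Mp) (q : ℕ) (Bq : Set (IrrCharacter G))
    (hout : ∀ ψ : IrrCharacter G, ψ ∉ Bq → q ∣ charDegree (ψ : G → ℂ)) :
    ∃ e : IrrCharacter G → ℕ, (∀ ψ, e ψ = 0 ∨ e ψ = 1) ∧
      (∀ ψ, e ψ = 1 → ψ ∈ principalBlock Mp G) ∧
      (∀ ψ, ψ ∈ principalBlock Mp G → e ψ = 1) ∧
      ∀ g : G, p ∣ orderOf g → ∃ w : ℂ, IsIntegral ℤ w ∧
        ∑ᶠ ψ ∈ Bq, (e ψ : ℂ) * ((ψ : G → ℂ) 1 * (ψ : G → ℂ) g) = (q : ℂ) * w := by
  classical
  have hp : p.Prime := Fact.out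
  haveI := Cfsg.Agent.H4.finite_irr G
  letI := Cfsg.Agent.H4.fintypeIrr G
  refine ⟨fun ψ => if ψ ∈ principalBlock Mp G then 1 else 0, ?_, ?_, ?_, ?_⟩
  · intro ψ
    by_cases h : ψ ∈ principalBlock Mp G
    · right; simp [h]
    · left; simp [h]
  · intro ψ h
    by_contra hcon
    simp [hcon] at h
  · intro ψ h
    simp [h]
  · intro g hg
    have hB : IsPBlock Mp (principalBlock Mp G) := ⟨triv G, rfl⟩
    have h0 := Cfsg.Agent.S0907.result p Mp hMp (principalBlock Mp G) hB 1 g⁻¹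
      (by rw [orderOf_one]; exact hp.not_dvd_one) (by rw [orderOf_inv]; exact hg)
    rw [finsum_mem_eq_finite_toFinset_sum _ (Set.toFinite _)] at h0
    have h0' : ∑ ψ : IrrCharacter G,
        (if ψ ∈ principalBlock Mp G then (ψ : G → ℂ) 1 * (ψ : G → ℂ) g else 0) = 0 := by
      rw [← Finset.sum_filter]
      refine Eq.trans (Finset.sum_congr ?_ fun ψ _ => ?_) h0
      · ext ψ; simp
      · rw [← Cfsg.Agent.H81.irr_inv ψ g⁻¹, inv_inv]
    rw [finsum_mem_eq_finite_toFinset_sum _ (Set.toFinite _)]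
    have hsplit : ∑ ψ ∈ (Set.toFinite Bq).toFinset,
        ((if ψ ∈ principalBlock Mp G then 1 else 0 : ℕ) : ℂ) * ((ψ : G → ℂ) 1 * (ψ : G → ℂ) g) =
        ∑ ψ : IrrCharacter G, (if ψ ∈ Bq then
          (if ψ ∈ principalBlock Mp G then (ψ : G → ℂ) 1 * (ψ : G → ℂ) g else 0) else 0) := by
      rw [← Finset.sum_filter]
      refine Finset.sum_congr ?_ fun ψ _ => ?_
      · ext ψ; simp
      · split_ifs <;> simp
    rw [hsplit]
    have hrest : ∃ w : ℂ, IsIntegral ℤ w ∧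
        ∑ ψ : IrrCharacter G, (if ψ ∈ Bq then 0 else
          (if ψ ∈ principalBlock Mp G then (ψ : G → ℂ) 1 * (ψ : G → ℂ) g else 0)) =
            (q : ℂ) * w := by
      refine Finset.sum_induction _ (fun z : ℂ => ∃ w : ℂ, IsIntegral ℤ w ∧ z = (q : ℂ) * w)
        ?_ ?_ ?_
      · rintro z₁ z₂ ⟨w₁, hw₁, rfl⟩ ⟨w₂, hw₂, rfl⟩
        exact ⟨w₁ + w₂, hw₁.add hw₂, by ring⟩
      · exact ⟨0, isIntegral_zero, by simp⟩
      · intro ψ _
        by_cases h1 : ψ ∈ Bq
        · exact ⟨0, isIntegral_zero, by simp [h1]⟩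
        · by_cases h2 : ψ ∈ principalBlock Mp G
          · obtain ⟨c, hc⟩ := hout ψ h1
            refine ⟨(c : ℂ) * (ψ : G → ℂ) g, (Cfsg.Agent.H4.isIntegral_natCast_complex c).mul
              (Cfsg.Agent.H81.irr_isIntegral ψ g), ?_⟩
            rw [if_neg h1, if_pos h2, (Cfsg.Agent.H81.irr_charDegree ψ).1, hc]
            push_cast; ring
          · exact ⟨0, isIntegral_zero, by simp [h1, h2]⟩
    obtain ⟨w, hw, hw2⟩ := hrest
    refine ⟨-w, hw.neg, ?_⟩
    have hadd : ∑ ψ : IrrCharacter G, (if ψ ∈ Bq then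
          (if ψ ∈ principalBlock Mp G then (ψ : G → ℂ) 1 * (ψ : G → ℂ) g else 0) else 0) +
        ∑ ψ : IrrCharacter G, (if ψ ∈ Bq then 0 else
          (if ψ ∈ principalBlock Mp G then (ψ : G → ℂ) 1 * (ψ : G → ℂ) g else 0)) =
        ∑ ψ : IrrCharacter G,
          (if ψ ∈ principalBlock Mp G then (ψ : G → ℂ) 1 * (ψ : G → ℂ) g else 0) := by
      rw [← Finset.sum_add_distrib]
      refine Finset.sum_congr rfl fun ψ _ => ?_
      split_ifs <;> simp
    rw [h0', hw2] at hadd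
    linear_combination hadd

end Cfsg.Agent.H21.Small
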