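import Cfsg.Agent.H21.E2Setup
import Cfsg.Agent.H98.Ord720
import Cfsg.Agent.H12.Mult4
import Cfsg.Agent.H70.RegBlock
import Cfsg.Agent.H21.WboMod

/-!
# No simple group of order 720 (helper21)

The principal `5`-block is regular (`e = 4`), weak block orthogonality for the prime `2` is read
modulo `5` on a Sylow `2`-subgroup, and a census of multiplicities gives a contradiction.
-/

set_option autoImplicit false
set_option linter.style.haveILetI false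

namespace Cfsg.Agent.H21.Small

open Cfsg Cfsg.Agent.H21 Cfsg.Agent.H21.E2Block

/-- A finite sum over an explicit five-element set. -/
theorem finsum_mem_five {α M : Type*} [AddCommMonoid M] (f : α → M) (a b c d e : α)
    (hab : a ≠ b) (hac : a ≠ c) (had : a ≠ d) (hae : a ≠ e) (hbc : b ≠ c) (hbd : b ≠ d)
    (hbe : b ≠ e) (hcd : c ≠ d) (hce : c ≠ e) (hde : d ≠ e) :
    ∑ᶠ x ∈ ({a, b, c, d, e} : Set α), f x = f a + (f b + (f c + (f d + f e))) := by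
  rw [finsum_mem_insert _ (by simp [hab, hac, had, hae]) (Set.toFinite _),
    finsum_mem_insert _ (by simp [hbc, hbd, hbe]) (Set.toFinite _),
    finsum_mem_insert _ (by simp [hcd, hce]) (Set.toFinite _), finsum_mem_pair hde]

/-- The squares of two distinct irreducible degrees add up to at most the group order. -/
theorem irr_degree_sq_add_le {G : Type*} [Group G] [Finite G] (χ ψ : IrrCharacter G)
    (hne : χ ≠ ψ) :
    charDegree (χ : G → ℂ) ^ 2 + charDegree (ψ : G → ℂ) ^ 2 ≤ Nat.card G := by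
  classical
  letI := Cfsg.Agent.H4.fintypeIrr G
  have hsq : (Nat.card G : ℂ) =
      ∑ φ : IrrCharacter G, ((charDegree (φ : G → ℂ) : ℕ) : ℂ) ^ 2 := by
    rw [← Cfsg.Agent.H4.sum_irr_sq (G := G), Cfsg.Agent.H4.finsum_irr_eq_sum]
    refine Finset.sum_congr rfl fun φ _ => ?_
    rw [(Cfsg.Agent.H81.irr_charDegree φ).1]
  have hsq' : Nat.card G = ∑ φ : IrrCharacter G, charDegree (φ : G → ℂ) ^ 2 := by
    exact_mod_cast hsq
  rw [hsq', ← Finset.sum_pair (f := fun φ : IrrCharacter G => charDegree (φ : G → ℂ) ^ 2) hne]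
  exact Finset.sum_le_sum_of_subset (Finset.subset_univ _)

/-- The two possible degree patterns. -/
theorem pattern720 (d1 d2 d3 d4 : ℕ) (s1 s2 s3 s4 : ℤ)
    (h1 : (d1 = 4 ∧ s1 = -1) ∨ (d1 = 6 ∧ s1 = 1) ∨ (d1 = 9 ∧ s1 = -1) ∨ (d1 = 16 ∧ s1 = 1) ∨
      (d1 = 24 ∧ s1 = -1))
    (h2 : (d2 = 4 ∧ s2 = -1) ∨ (d2 = 6 ∧ s2 = 1) ∨ (d2 = 9 ∧ s2 = -1) ∨ (d2 = 16 ∧ s2 = 1) ∨
      (d2 = 24 ∧ s2 = -1))
    (h3 : (d3 = 4 ∧ s3 = -1) ∨ (d3 = 6 ∧ s3 = 1) ∨ (d3 = 9 ∧ s3 = -1) ∨ (d3 = 16 ∧ s3 = 1) ∨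
      (d3 = 24 ∧ s3 = -1))
    (h4 : (d4 = 4 ∧ s4 = -1) ∨ (d4 = 6 ∧ s4 = 1) ∨ (d4 = 9 ∧ s4 = -1) ∨ (d4 = 16 ∧ s4 = 1) ∨
      (d4 = 24 ∧ s4 = -1))
    (h12 : d1 ≤ d2) (h23 : d2 ≤ d3) (h34 : d3 ≤ d4) (hsq : d3 ^ 2 + d4 ^ 2 ≤ 720)
    (heq : 1 + s1 * d1 + s2 * d2 + s3 * d3 + s4 * d4 = 0) :
    (d1 = 4 ∧ d2 = 6 ∧ d3 = 6 ∧ d4 = 9 ∧ s1 = -1 ∧ s2 = 1 ∧ s3 = 1 ∧ s4 = -1) ∨
    (d1 = 4 ∧ d2 = 4 ∧ d3 = 9 ∧ d4 = 16 ∧ s1 = -1 ∧ s2 = -1 ∧ s3 = -1 ∧ s4 = 1) := by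
  rcases h1 with ⟨rfl, rfl⟩ | ⟨rfl, rfl⟩ | ⟨rfl, rfl⟩ | ⟨rfl, rfl⟩ | ⟨rfl, rfl⟩ <;>
  rcases h2 with ⟨rfl, rfl⟩ | ⟨rfl, rfl⟩ | ⟨rfl, rfl⟩ | ⟨rfl, rfl⟩ | ⟨rfl, rfl⟩ <;>
  rcases h3 with ⟨rfl, rfl⟩ | ⟨rfl, rfl⟩ | ⟨rfl, rfl⟩ | ⟨rfl, rfl⟩ | ⟨rfl, rfl⟩ <;>
  rcases h4 with ⟨rfl, rfl⟩ | ⟨rfl, rfl⟩ | ⟨rfl, rfl⟩ | ⟨rfl, rfl⟩ | ⟨rfl, rfl⟩ <;>
  first
    | (exfalso; omega)
    | (exfalso; norm_num at hsq; done)
    | (exfalso; norm_num at heq; done)
    | (left; refine ⟨rfl, rfl, rfl, rfl, rfl, rfl, rfl, rfl⟩)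
    | (right; refine ⟨rfl, rfl, rfl, rfl, rfl, rfl, rfl, rfl⟩)

/-- No finite simple group has order `720 = 2^4 * 3^2 * 5`. -/
theorem no_simple_720 {G : Type*} [Group G] [Finite G] [IsSimpleGroup G]
    (hcard : Nat.card G = 720) : False := by
  classical
  have hnp : ¬ (Nat.card G).Prime := by rw [hcard]; norm_num
  have hG : ¬ IsMulCommutative G := Cfsg.Agent.H21.not_comm_of_not_prime hnp
  have hna : ∃ u v : G, u * v ≠ v * u := by
    by_contra hcon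
    push Not at hcon
    exact hG ⟨⟨hcon⟩⟩
  have : Fact (Nat.Prime 5) := ⟨by norm_num⟩
  have : Fact (Nat.Prime 2) := ⟨Nat.prime_two⟩
  have hcard' : Nat.card G = 2 ^ 4 * 3 ^ 2 * 5 := by rw [hcard]; norm_num
  obtain ⟨M5, hM5⟩ := Cfsg.Agent.H78.exists_isPModular 5 (by norm_num)
  obtain ⟨M2, hM2⟩ := Cfsg.Agent.H78.exists_isPModular 2 Nat.prime_two
  -- the Sylow 5-subgroup is self-centralizing with normalizer of order 20
  let P : Sylow 5 G := default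
  have hP : Nat.card P = 5 :=
    BrauerTuan.card_sylow 2 3 5 4 2 Nat.prime_two Nat.prime_three (by norm_num) (by norm_num)
      hcard' P
  have hC : Subgroup.centralizer ((P : Subgroup G) : Set G) = (P : Subgroup G) :=
    BrauerTuan.centralizer_sylow_eq 2 3 5 4 2 Nat.prime_two Nat.prime_three (by norm_num)
      (by norm_num) hcard' P
  obtain ⟨d, hd, hd1, hdr, -⟩ := Cfsg.Agent.H21.simple_sylow_prime_card_NC hG P hP
  have hcardN := Cfsg.Agent.H21.card_centralizer_mul_relIndex_normalizer (P : Subgroup G)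
  rw [← hd, hC] at hcardN
  obtain ⟨-, -, -, -, hmod, -, -, hNn, -⟩ := Cfsg.Agent.H21.simple_sylow_facts hG (p := 5)
    (k := 1) (m := 144) (by rw [hcard]; norm_num) (by norm_num) one_ne_zero P
  have hPc : Nat.card (P : Subgroup G) = 5 := hP
  rw [← hcardN, hPc, hcard] at hNn
  have hd4 : d = 4 := by
    have hle : d ≤ 4 := Nat.le_of_dvd (by norm_num) hdr
    generalize Nat.card (Sylow 5 G) = n at hNn hmod
    interval_cases d <;> omega
  have he : (Subgroup.centralizer ((P : Subgroup G) : Set G)).relIndex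
      (Subgroup.normalizer ((P : Subgroup G) : Set G)) = 5 - 1 := by rw [← hd, hd4]
  -- the principal 5-block
  obtain ⟨hB5card, s, hs, hrel⟩ := Cfsg.Agent.H70.RegBlock.regular_block 5 M5 hM5 (by norm_num) P hP he
  have hout := fun ψ hψ => outside_dvd 5 M5 hM5 P hP hC ψ hψ
  have h0B5 : triv G ∈ principalBlock M5 G := Cfsg.Agent.H81.mem_blockOf_self hM5 (triv G)
  have hT4 : (principalBlock M5 G \ {triv G}).ncard = 4 := by
    rw [Set.ncard_sdiff_singleton_of_mem h0B5, hB5card]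
  obtain ⟨ζ1, ζ2, ζ3, ζ4, h12, h13, h14, h23, h24, h34, hT, hs12, hs23, hs34⟩ :=
    Cfsg.Agent.H98.Ord720.exists_sorted4 _ hT4 (fun χ : IrrCharacter G => charDegree (χ : G → ℂ))
  have hB5 : principalBlock M5 G = {triv G, ζ1, ζ2, ζ3, ζ4} := by
    rw [← hT, Set.insert_sdiff_singleton, Set.insert_eq_of_mem h0B5]
  have hmemT : ∀ ζ : IrrCharacter G, ζ ∈ ({ζ1, ζ2, ζ3, ζ4} : Set (IrrCharacter G)) →
      ζ ∈ principalBlock M5 G ∧ ζ ≠ triv G := by
    intro ζ hζ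
    rw [← hT] at hζ
    exact ⟨hζ.1, hζ.2⟩
  have hζ1 := hmemT ζ1 (by simp)
  have hζ2 := hmemT ζ2 (by simp)
  have hζ3 := hmemT ζ3 (by simp)
  have hζ4 := hmemT ζ4 (by simp)
  -- degree facts
  have hdegfacts : ∀ ζ : IrrCharacter G, ζ ∈ principalBlock M5 G → ζ ≠ triv G →
      ((charDegree (ζ : G → ℂ) = 4 ∧ s ζ = -1) ∨ (charDegree (ζ : G → ℂ) = 6 ∧ s ζ = 1) ∨
        (charDegree (ζ : G → ℂ) = 9 ∧ s ζ = -1) ∨ (charDegree (ζ : G → ℂ) = 16 ∧ s ζ = 1) ∨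
        (charDegree (ζ : G → ℂ) = 24 ∧ s ζ = -1)) := by
    intro ζ hζ hne
    obtain ⟨hx1, hxpos⟩ := Cfsg.Agent.H81.irr_charDegree ζ
    have hxdvd := Cfsg.Agent.H81.irr_charDegree_dvd ζ
    have hxsq := irr_degree_sq_le ζ
    obtain ⟨hsζ, hmodζ⟩ := hs ζ hζ
    have hx_ne1 : charDegree (ζ : G → ℂ) ≠ 1 := by
      intro h
      have hdeg : (ζ : G → ℂ) 1 = ((5 : ℕ) : ℂ) ^ 0 := by rw [hx1, h]; simp
      have := Cfsg.Agent.S0910.result 5 M5 hM5 hna ζ hζ 0 hdeg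
      exact hne (Subtype.ext this)
    have hdvd5 := hmodζ.dvd
    generalize charDegree (ζ : G → ℂ) = x at *
    rw [hcard] at hxdvd hxsq
    have hx27 : x < 27 := by nlinarith
    push_cast at hdvd5
    rcases hsζ with h | h <;> rw [h] at hdvd5 ⊢ <;> interval_cases x <;> omega
  have hd1f := hdegfacts ζ1 hζ1.1 hζ1.2
  have hd2f := hdegfacts ζ2 hζ2.1 hζ2.2
  have hd3f := hdegfacts ζ3 hζ3.1 hζ3.2
  have hd4f := hdegfacts ζ4 hζ4.1 hζ4.2
  have hval1 : ∀ ζ : IrrCharacter G, (ζ : G → ℂ) 1 = (charDegree (ζ : G → ℂ) : ℂ) :=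
    fun ζ => (Cfsg.Agent.H81.irr_charDegree ζ).1
  have hstriv : s (triv G) = 1 := by
    obtain ⟨h1, h2⟩ := hs (triv G) h0B5
    have hdeg : charDegree ((triv G : IrrCharacter G) : G → ℂ) = 1 := by
      have := hval1 (triv G)
      rw [triv_apply] at this
      exact_mod_cast this.symm
    rw [hdeg] at h2
    have := h2.dvd
    rcases h1 with h | h
    · exact h
    · rw [h] at this; omega
  -- the relation on 5-regular elements
  have hrel' : ∀ g : G, ¬ 5 ∣ orderOf g →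
      (1 : ℂ) + ((s ζ1 : ℂ) * (ζ1 : G → ℂ) g + ((s ζ2 : ℂ) * (ζ2 : G → ℂ) g +
        ((s ζ3 : ℂ) * (ζ3 : G → ℂ) g + (s ζ4 : ℂ) * (ζ4 : G → ℂ) g))) = 0 := by
    intro g hg
    have := hrel g hg
    rw [hB5, finsum_mem_five _ _ _ _ _ _ hζ1.2.symm hζ2.2.symm hζ3.2.symm hζ4.2.symm
      h12 h13 h14 h23 h24 h34, hstriv, triv_apply] at this
    simpa using this
  have hsq34 := irr_degree_sq_add_le ζ3 ζ4 h34
  rw [hcard] at hsq34
  have hdegeq : 1 + s ζ1 * (charDegree (ζ1 : G → ℂ) : ℤ) + s ζ2 * (charDegree (ζ2 : G → ℂ) : ℤ)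
      + s ζ3 * (charDegree (ζ3 : G → ℂ) : ℤ) + s ζ4 * (charDegree (ζ4 : G → ℂ) : ℤ) = 0 := by
    have := hrel' 1 (by rw [orderOf_one]; norm_num)
    rw [hval1, hval1, hval1, hval1] at this
    have h2 : ((1 + s ζ1 * (charDegree (ζ1 : G → ℂ) : ℤ) + s ζ2 * (charDegree (ζ2 : G → ℂ) : ℤ)
      + s ζ3 * (charDegree (ζ3 : G → ℂ) : ℤ) + s ζ4 * (charDegree (ζ4 : G → ℂ) : ℤ) : ℤ) : ℂ)
        = 0 := by
      push_cast
      linear_combination this
    exact_mod_cast h2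
  have hpat := pattern720 _ _ _ _ _ _ _ _ hd1f hd2f hd3f hd4f hs12 hs23 hs34 hsq34 hdegeq
  -- weak block orthogonality for the prime 2 modulo 5
  obtain ⟨e, he01, heB, heB', hw⟩ := wbo_mod 2 M2 hM2 5 (principalBlock M5 G) hout
  have he0 : e (triv G) = 1 := heB' _ (Cfsg.Agent.H81.mem_blockOf_self hM2 (triv G))
  have hepow : ∀ ζ : IrrCharacter G, ζ ≠ triv G → ∀ k : ℕ, charDegree (ζ : G → ℂ) = 2 ^ k →
      e ζ = 0 := by
    intro ζ hne k hk
    rcases he01 ζ with h | h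
    · exact h
    · exfalso
      have hdeg : (ζ : G → ℂ) 1 = ((2 : ℕ) : ℂ) ^ k := by rw [hval1, hk]; push_cast; rfl
      have := Cfsg.Agent.S0910.result 2 M2 hM2 hna ζ (heB ζ h) k hdeg
      exact hne (Subtype.ext this)
  have hw' : ∀ g : G, 2 ∣ orderOf g → ∃ w : ℂ, IsIntegral ℤ w ∧
      (1 : ℂ) + ((e ζ1 : ℂ) * ((charDegree (ζ1 : G → ℂ) : ℂ) * (ζ1 : G → ℂ) g) +
        ((e ζ2 : ℂ) * ((charDegree (ζ2 : G → ℂ) : ℂ) * (ζ2 : G → ℂ) g) +
        ((e ζ3 : ℂ) * ((charDegree (ζ3 : G → ℂ) : ℂ) * (ζ3 : G → ℂ) g) +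
          (e ζ4 : ℂ) * ((charDegree (ζ4 : G → ℂ) : ℂ) * (ζ4 : G → ℂ) g)))) = ((5 : ℕ) : ℂ) * w := by
    intro g hg
    obtain ⟨w, hw1, hw2⟩ := hw g hg
    refine ⟨w, hw1, ?_⟩
    rw [hB5, finsum_mem_five _ _ _ _ _ _ hζ1.2.symm hζ2.2.symm hζ3.2.symm hζ4.2.symm
      h12 h13 h14 h23 h24 h34, he0, triv_apply, triv_apply, hval1, hval1, hval1, hval1] at hw2
    rw [← hw2]
    push_cast
    ring
  -- a Sylow 2-subgroup
  let S : Sylow 2 G := default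
  have hS : Nat.card (S : Subgroup G) = 2 ^ 4 :=
    Cfsg.Agent.H21.sylow_card_of_card_eq (p := 2) (k := 4) (m := 45) (by rw [hcard]; norm_num)
      (by norm_num) S
  have hfacts : ∀ g ∈ (S : Subgroup G), g ≠ 1 → 2 ∣ orderOf g ∧ ¬ 5 ∣ orderOf g :=
    fun g hg hg1 => two_elt_facts (S : Subgroup G) 4 hS 5 (by norm_num) (by norm_num) g hg hg1
  obtain ⟨Ψ, ψ0, δ, dg, m1, m2, m3, m4, hΨ, hδ0, hδ, hdg0, hdgpos, hdgdvd, hsumdg, hsum1, hsum2,
      hsum3, hsum4, hcong⟩ := Cfsg.Agent.H12.Ord720.mult4 (S : Subgroup G)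
    (ζ1 : G → ℂ) (ζ2 : G → ℂ) (ζ3 : G → ℂ) (ζ4 : G → ℂ)
    (Cfsg.Agent.H4.isCharacter_of_isIrrCharacter ζ1.2)
    (Cfsg.Agent.H4.isCharacter_of_isIrrCharacter ζ2.2)
    (Cfsg.Agent.H4.isCharacter_of_isIrrCharacter ζ3.2)
    (Cfsg.Agent.H4.isCharacter_of_isIrrCharacter ζ4.2) _ _ _ _ (hval1 ζ1) (hval1 ζ2) (hval1 ζ3)
    (hval1 ζ4)
  rw [hS] at hsumdg hdgdvd hcong
  -- degrees of the irreducible characters of `S` are 1 or 2
  have hdg12 : ∀ ψ, dg ψ = 1 ∨ dg ψ = 2 := by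
    intro ψ
    by_cases hψ : ψ = ψ0
    · left; rw [hψ, hdg0]
    · have hle : dg ψ ^ 2 + dg ψ0 ^ 2 ≤ ∑ φ ∈ Ψ, dg φ ^ 2 := by
        rw [← Finset.sum_pair (f := fun φ => dg φ ^ 2) hψ]
        exact Finset.sum_le_sum_of_subset (fun φ _ => hΨ φ)
      rw [hsumdg, hdg0] at hle
      have h4 : dg ψ < 4 := by nlinarith
      have hpos := hdgpos ψ
      have hdvd := hdgdvd ψ
      generalize dg ψ = x at *
      interval_cases x <;> omega
  have census' : ∀ (L : IrrCharacter (S : Subgroup G) → ℕ) (b0 b1 b2 : ℕ), b0 ≤ L ψ0 →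
      (∀ ψ, ψ ≠ ψ0 → dg ψ = 1 → b1 ≤ L ψ) → (∀ ψ, dg ψ = 2 → b2 ≤ L ψ) →
      ∃ U V : ℕ, 1 + U + 4 * V = 16 ∧ b0 + b1 * U + b2 * V ≤ ∑ ψ ∈ Ψ, L ψ := by
    intro L b0 b1 b2 h0 h1 h2
    obtain ⟨U, V, hUV, hle⟩ := Cfsg.Agent.H98.Ord720.census Ψ ψ0 (hΨ ψ0) dg L
      (fun ψ _ => hdg12 ψ) hdg0 b0 b1 b2 h0 (fun ψ _ => h1 ψ) (fun ψ _ => h2 ψ)
    exact ⟨U, V, by rw [hUV, hsumdg]; norm_num, hle⟩
  -- the exact relation between multiplicities
  have hR : ∀ ψ, δ ψ + s ζ1 * m1 ψ + s ζ2 * m2 ψ + s ζ3 * m3 ψ + s ζ4 * m4 ψ = 0 := by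
    intro ψ
    have h := hcong 0 1 (s ζ1) (s ζ2) (s ζ3) (s ζ4) (fun g hg hg1 => ⟨0, isIntegral_zero, by
      have := hrel' g (hfacts g hg hg1).2
      push_cast
      rw [mul_zero]
      linear_combination this⟩) ψ
    have hz : (1 + s ζ1 * (charDegree (ζ1 : G → ℂ) : ℤ) + s ζ2 * (charDegree (ζ2 : G → ℂ) : ℤ)
      + s ζ3 * (charDegree (ζ3 : G → ℂ) : ℤ) + s ζ4 * (charDegree (ζ4 : G → ℂ) : ℤ)) = 0 := hdegeq
    rw [hz] at h
    simp only [Nat.cast_zero, zero_mul, sub_zero, zero_dvd_iff, one_mul] at h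
    have h16 : ((2 ^ 4 : ℕ) : ℤ) ≠ 0 := by norm_num
    exact (mul_eq_zero.mp h).resolve_left h16
  -- the congruence modulo 5
  have hW : ∀ ψ, (5 : ℤ) ∣ 16 * (δ ψ + (e ζ1 * charDegree (ζ1 : G → ℂ) : ℕ) * m1 ψ +
      (e ζ2 * charDegree (ζ2 : G → ℂ) : ℕ) * m2 ψ + (e ζ3 * charDegree (ζ3 : G → ℂ) : ℕ) * m3 ψ +
      (e ζ4 * charDegree (ζ4 : G → ℂ) : ℕ) * m4 ψ) -
      (1 + (e ζ1 * charDegree (ζ1 : G → ℂ) : ℕ) * charDegree (ζ1 : G → ℂ) +
        (e ζ2 * charDegree (ζ2 : G → ℂ) : ℕ) * charDegree (ζ2 : G → ℂ) +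
        (e ζ3 * charDegree (ζ3 : G → ℂ) : ℕ) * charDegree (ζ3 : G → ℂ) +
        (e ζ4 * charDegree (ζ4 : G → ℂ) : ℕ) * charDegree (ζ4 : G → ℂ)) * dg ψ := by
    intro ψ
    have h := hcong 5 1 ((e ζ1 * charDegree (ζ1 : G → ℂ) : ℕ) : ℤ)
      ((e ζ2 * charDegree (ζ2 : G → ℂ) : ℕ) : ℤ) ((e ζ3 * charDegree (ζ3 : G → ℂ) : ℕ) : ℤ)
      ((e ζ4 * charDegree (ζ4 : G → ℂ) : ℕ) : ℤ) (fun g hg hg1 => by
        obtain ⟨w, hw1, hw2⟩ := hw' g (hfacts g hg hg1).1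
        refine ⟨w, hw1, ?_⟩
        rw [← hw2]
        push_cast
        ring) ψ
    have h16 : ((2 ^ 4 : ℕ) : ℤ) = 16 := by norm_num
    rw [h16] at h
    simpa using h
  rcases hpat with ⟨hd1, hd2, hd3, hd4, hs1, hs2, hs3, hs4⟩ | ⟨hd1, hd2, hd3, hd4, hs1, hs2, hs3, hs4⟩
  · -- degrees 4, 6, 6, 9
    have he1 : e ζ1 = 0 := hepow ζ1 hζ1.2 2 (by rw [hd1]; norm_num)
    simp only [hd1, hd2, hd3, hd4, hs1, hs2, hs3, hs4, he1] at hR hW hsum1 hsum2 hsum3 hsum4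
    rcases he01 ζ2 with he2 | he2 <;> rcases he01 ζ3 with he3 | he3 <;>
      rcases he01 ζ4 with he4 | he4 <;> simp only [he2, he3, he4] at hW
    · -- e = (0, 0, 0)
      have hb0 : 0 ≤ 0 := le_refl 0
      have hb1 : ∀ ψ, ψ ≠ ψ0 → dg ψ = 1 → 1 ≤ 0 := by
        intro ψ hne h1
        have hr := hR ψ
        have hw := hW ψ
        rw [hδ ψ hne] at hr hw
        simp only [h1] at hw ⊢
        omega
      have hb2 : ∀ ψ, dg ψ = 2 → 1 ≤ 0 := by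
        intro ψ h2
        have hne : ψ ≠ ψ0 := by
          rintro rfl
          omega
        have hr := hR ψ
        have hw := hW ψ
        rw [hδ ψ hne] at hr hw
        simp only [h2] at hw ⊢
        omega
      obtain ⟨U, V, hUV, hle⟩ := census' (fun _ => 0) 0 1 1 hb0 hb1 hb2
      rw [Finset.sum_const_zero] at hle
      omega
    · -- e = (0, 0, 1)
      have hb0 : 4 ≤ m4 ψ0 * dg ψ0 := by
        have hr := hR ψ0
        have hw := hW ψ0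
        rw [hδ0] at hr hw
        simp only [hdg0] at hw ⊢
        omega
      have hb1 : ∀ ψ, ψ ≠ ψ0 → dg ψ = 1 → 3 ≤ m4 ψ * dg ψ := by
        intro ψ hne h1
        have hr := hR ψ
        have hw := hW ψ
        rw [hδ ψ hne] at hr hw
        simp only [h1] at hw ⊢
        omega
      have hb2 : ∀ ψ, dg ψ = 2 → 2 ≤ m4 ψ * dg ψ := by
        intro ψ h2
        have hne : ψ ≠ ψ0 := by
          rintro rfl
          omega
        have hr := hR ψ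
        have hw := hW ψ
        rw [hδ ψ hne] at hr hw
        simp only [h2] at hw ⊢
        omega
      obtain ⟨U, V, hUV, hle⟩ := census' (fun ψ => m4 ψ * dg ψ) 4 3 2 hb0 hb1 hb2
      rw [hsum4] at hle
      omega
    · -- e = (0, 1, 0)
      have hb0 : 1 ≤ m3 ψ0 * dg ψ0 := by
        have hr := hR ψ0
        have hw := hW ψ0
        rw [hδ0] at hr hw
        simp only [hdg0] at hw ⊢
        omega
      have hb1 : ∀ ψ, ψ ≠ ψ0 → dg ψ = 1 → 2 ≤ m3 ψ * dg ψ := by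
        intro ψ hne h1
        have hr := hR ψ
        have hw := hW ψ
        rw [hδ ψ hne] at hr hw
        simp only [h1] at hw ⊢
        omega
      have hb2 : ∀ ψ, dg ψ = 2 → 8 ≤ m3 ψ * dg ψ := by
        intro ψ h2
        have hne : ψ ≠ ψ0 := by
          rintro rfl
          omega
        have hr := hR ψ
        have hw := hW ψ
        rw [hδ ψ hne] at hr hw
        simp only [h2] at hw ⊢
        omega
      obtain ⟨U, V, hUV, hle⟩ := census' (fun ψ => m3 ψ * dg ψ) 1 2 8 hb0 hb1 hb2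
      rw [hsum3] at hle
      omega
    · -- e = (0, 1, 1)
      have hb0 : 2 ≤ 4 * (m1 ψ0 * dg ψ0) + m2 ψ0 * dg ψ0 := by
        have hr := hR ψ0
        have hw := hW ψ0
        rw [hδ0] at hr hw
        simp only [hdg0] at hw ⊢
        omega
      have hb1 : ∀ ψ, ψ ≠ ψ0 → dg ψ = 1 → 2 ≤ 4 * (m1 ψ * dg ψ) + m2 ψ * dg ψ := by
        intro ψ hne h1
        have hr := hR ψ
        have hw := hW ψ
        rw [hδ ψ hne] at hr hw
        simp only [h1] at hw ⊢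
        omega
      have hb2 : ∀ ψ, dg ψ = 2 → 8 ≤ 4 * (m1 ψ * dg ψ) + m2 ψ * dg ψ := by
        intro ψ h2
        have hne : ψ ≠ ψ0 := by
          rintro rfl
          omega
        have hr := hR ψ
        have hw := hW ψ
        rw [hδ ψ hne] at hr hw
        simp only [h2] at hw ⊢
        omega
      obtain ⟨U, V, hUV, hle⟩ := census' (fun ψ => 4 * (m1 ψ * dg ψ) + m2 ψ * dg ψ) 2 2 8 hb0 hb1 hb2
      rw [Finset.sum_add_distrib, ← Finset.mul_sum, hsum1, hsum2] at hle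
      omega
    · -- e = (1, 0, 0)
      have hb0 : 1 ≤ m2 ψ0 * dg ψ0 := by
        have hr := hR ψ0
        have hw := hW ψ0
        rw [hδ0] at hr hw
        simp only [hdg0] at hw ⊢
        omega
      have hb1 : ∀ ψ, ψ ≠ ψ0 → dg ψ = 1 → 2 ≤ m2 ψ * dg ψ := by
        intro ψ hne h1
        have hr := hR ψ
        have hw := hW ψ
        rw [hδ ψ hne] at hr hw
        simp only [h1] at hw ⊢
        omega
      have hb2 : ∀ ψ, dg ψ = 2 → 8 ≤ m2 ψ * dg ψ := by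
        intro ψ h2
        have hne : ψ ≠ ψ0 := by
          rintro rfl
          omega
        have hr := hR ψ
        have hw := hW ψ
        rw [hδ ψ hne] at hr hw
        simp only [h2] at hw ⊢
        omega
      obtain ⟨U, V, hUV, hle⟩ := census' (fun ψ => m2 ψ * dg ψ) 1 2 8 hb0 hb1 hb2
      rw [hsum2] at hle
      omega
    · -- e = (1, 0, 1)
      have hb0 : 2 ≤ 4 * (m1 ψ0 * dg ψ0) + m3 ψ0 * dg ψ0 := by
        have hr := hR ψ0
        have hw := hW ψ0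
        rw [hδ0] at hr hw
        simp only [hdg0] at hw ⊢
        omega
      have hb1 : ∀ ψ, ψ ≠ ψ0 → dg ψ = 1 → 2 ≤ 4 * (m1 ψ * dg ψ) + m3 ψ * dg ψ := by
        intro ψ hne h1
        have hr := hR ψ
        have hw := hW ψ
        rw [hδ ψ hne] at hr hw
        simp only [h1] at hw ⊢
        omega
      have hb2 : ∀ ψ, dg ψ = 2 → 8 ≤ 4 * (m1 ψ * dg ψ) + m3 ψ * dg ψ := by
        intro ψ h2
        have hne : ψ ≠ ψ0 := by
          rintro rfl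
          omega
        have hr := hR ψ
        have hw := hW ψ
        rw [hδ ψ hne] at hr hw
        simp only [h2] at hw ⊢
        omega
      obtain ⟨U, V, hUV, hle⟩ := census' (fun ψ => 4 * (m1 ψ * dg ψ) + m3 ψ * dg ψ) 2 2 8 hb0 hb1 hb2
      rw [Finset.sum_add_distrib, ← Finset.mul_sum, hsum1, hsum3] at hle
      omega
    · -- e = (1, 1, 0)
      have hb0 : 2 ≤ m2 ψ0 * dg ψ0 + m3 ψ0 * dg ψ0 := by
        have hr := hR ψ0
        have hw := hW ψ0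
        rw [hδ0] at hr hw
        simp only [hdg0] at hw ⊢
        omega
      have hb1 : ∀ ψ, ψ ≠ ψ0 → dg ψ = 1 → 3 ≤ m2 ψ * dg ψ + m3 ψ * dg ψ := by
        intro ψ hne h1
        have hr := hR ψ
        have hw := hW ψ
        rw [hδ ψ hne] at hr hw
        simp only [h1] at hw ⊢
        omega
      have hb2 : ∀ ψ, dg ψ = 2 → 2 ≤ m2 ψ * dg ψ + m3 ψ * dg ψ := by
        intro ψ h2
        have hne : ψ ≠ ψ0 := by
          rintro rfl
          omega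
        have hr := hR ψ
        have hw := hW ψ
        rw [hδ ψ hne] at hr hw
        simp only [h2] at hw ⊢
        omega
      obtain ⟨U, V, hUV, hle⟩ := census' (fun ψ => m2 ψ * dg ψ + m3 ψ * dg ψ) 2 3 2 hb0 hb1 hb2
      rw [Finset.sum_add_distrib, hsum2, hsum3] at hle
      omega
    · -- e = (1, 1, 1)
      have hb0 : 4 ≤ m1 ψ0 * dg ψ0 := by
        have hr := hR ψ0
        have hw := hW ψ0
        rw [hδ0] at hr hw
        simp only [hdg0] at hw ⊢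
        omega
      have hb1 : ∀ ψ, ψ ≠ ψ0 → dg ψ = 1 → 4 ≤ m1 ψ * dg ψ := by
        intro ψ hne h1
        have hr := hR ψ
        have hw := hW ψ
        rw [hδ ψ hne] at hr hw
        simp only [h1] at hw ⊢
        omega
      have hb2 : ∀ ψ, dg ψ = 2 → 6 ≤ m1 ψ * dg ψ := by
        intro ψ h2
        have hne : ψ ≠ ψ0 := by
          rintro rfl
          omega
        have hr := hR ψ
        have hw := hW ψ
        rw [hδ ψ hne] at hr hw
        simp only [h2] at hw ⊢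
        omega
      obtain ⟨U, V, hUV, hle⟩ := census' (fun ψ => m1 ψ * dg ψ) 4 4 6 hb0 hb1 hb2
      rw [hsum1] at hle
      omega
  · -- degrees 4, 4, 9, 16
    have he1 : e ζ1 = 0 := hepow ζ1 hζ1.2 2 (by rw [hd1]; norm_num)
    have he2 : e ζ2 = 0 := hepow ζ2 hζ2.2 2 (by rw [hd2]; norm_num)
    have he4 : e ζ4 = 0 := hepow ζ4 hζ4.2 4 (by rw [hd4]; norm_num)
    simp only [hd1, hd2, hd3, hd4, hs1, hs2, hs3, hs4, he1, he2, he4] at hR hW hsum1 hsum2 hsum3 hsum4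
    rcases he01 ζ3 with he3 | he3 <;> simp only [he3] at hW
    · -- e3 = 0
      have hb0 : 0 ≤ 0 := le_refl 0
      have hb1 : ∀ ψ, ψ ≠ ψ0 → dg ψ = 1 → 1 ≤ 0 := by
        intro ψ hne h1
        have hr := hR ψ
        have hw := hW ψ
        rw [hδ ψ hne] at hr hw
        simp only [h1] at hw ⊢
        omega
      have hb2 : ∀ ψ, dg ψ = 2 → 1 ≤ 0 := by
        intro ψ h2
        have hne : ψ ≠ ψ0 := by
          rintro rfl
          omega
        have hr := hR ψ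
        have hw := hW ψ
        rw [hδ ψ hne] at hr hw
        simp only [h2] at hw ⊢
        omega
      obtain ⟨U, V, hUV, hle⟩ := census' (fun _ => 0) 0 1 1 hb0 hb1 hb2
      rw [Finset.sum_const_zero] at hle
      omega
    · -- e3 = 1
      have hb0 : 4 ≤ m3 ψ0 * dg ψ0 := by
        have hr := hR ψ0
        have hw := hW ψ0
        rw [hδ0] at hr hw
        simp only [hdg0] at hw ⊢
        omega
      have hb1 : ∀ ψ, ψ ≠ ψ0 → dg ψ = 1 → 3 ≤ m3 ψ * dg ψ := by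
        intro ψ hne h1
        have hr := hR ψ
        have hw := hW ψ
        rw [hδ ψ hne] at hr hw
        simp only [h1] at hw ⊢
        omega
      have hb2 : ∀ ψ, dg ψ = 2 → 2 ≤ m3 ψ * dg ψ := by
        intro ψ h2
        have hne : ψ ≠ ψ0 := by
          rintro rfl
          omega
        have hr := hR ψ
        have hw := hW ψ
        rw [hδ ψ hne] at hr hw
        simp only [h2] at hw ⊢
        omega
      obtain ⟨U, V, hUV, hle⟩ := census' (fun ψ => m3 ψ * dg ψ) 4 3 2 hb0 hb1 hb2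
      rw [hsum3] at hle
      omega

end Cfsg.Agent.H21.Small
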