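import Mathlib
import Cfsg.Agent.H21.SimpleTools
import Cfsg.Agent.H21.Counting
import Cfsg.Agent.H21.PrimeSylow
import Cfsg.Agent.S1018

set_option autoImplicit false

namespace Cfsg.Agent.H21

open Subgroup

/-- The numbers of elements of the orders in a finite set add up to at most `|G|`. -/
theorem sum_card_orderOf_le {G : Type*} [Group G] [Finite G] (S : Finset ℕ) :
    ∑ a ∈ S, Nat.card {g : G // orderOf g = a} ≤ Nat.card G := by
  classical
  have := Fintype.ofFinite G
  have h : ∀ a, Nat.card {g : G // orderOf g = a} =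
      (Finset.univ.filter (fun g : G => orderOf g = a)).card := by
    intro a
    rw [Nat.card_eq_fintype_card, Fintype.card_subtype]
  simp_rw [h]
  rw [← Finset.card_biUnion]
  · rw [Nat.card_eq_fintype_card]
    exact Finset.card_le_univ _
  · intro a _ b _ hab
    rw [Function.onFun, Finset.disjoint_left]
    intro g hg hg'
    simp only [Finset.mem_filter, Finset.mem_univ, true_and] at hg hg'
    exact hab (hg ▸ hg')

/-- The conjugacy class of `x` consists of elements of the same order. -/
theorem card_conj_le_card_orderOf {G : Type*} [Group G] [Finite G] (x : G) :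
    Nat.card {g : G // IsConj x g} ≤ Nat.card {g : G // orderOf g = orderOf x} := by
  refine Nat.card_le_card_of_injective (fun g => ⟨g.1, ?_⟩) ?_
  · obtain ⟨c, hc⟩ := isConj_iff.1 g.2
    rw [← hc, Cfsg.Agent.S1018.orderOf_conj_eq]
  · intro a b hab
    have h : (a : G) = (b : G) := congrArg (fun t : {g : G // orderOf g = orderOf x} => (t : G)) hab
    exact Subtype.ext h

/-- If `|P| = p = |C(P)|` for a Sylow `p`-subgroup and `Q` is a Sylow `q`-subgroup of prime order
`q < p`, then `p ∤ |N(Q)|`. -/
theorem not_dvd_card_normalizer_of_centralizer {G : Type*} [Group G] [Finite G] (p q : ℕ)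
    [Fact p.Prime] [Fact q.Prime] (hqp : q < p) (P : Sylow p G)
    (hP : Nat.card (P : Subgroup G) = p)
    (hC : Nat.card (centralizer ((P : Subgroup G) : Set G)) = p)
    (Q : Sylow q G) (hQ : Nat.card (Q : Subgroup G) = q) :
    ¬ p ∣ Nat.card (normalizer ((Q : Subgroup G) : Set G)) := by
  have hp : p.Prime := Fact.out
  have hq : q.Prime := Fact.out
  intro hdvd
  have h1 := relIndex_centralizer_normalizer_dvd_card_mulAut (Q : Subgroup G)
  have : IsCyclic (Q : Subgroup G) := isCyclic_of_prime_card hQ
  rw [IsCyclic.card_mulAut, hQ, Nat.totient_prime hq] at h1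
  have h2 := card_centralizer_mul_relIndex_normalizer (Q : Subgroup G)
  rw [← h2] at hdvd
  have hd : ¬ p ∣ (centralizer ((Q : Subgroup G) : Set G)).relIndex
      (normalizer ((Q : Subgroup G) : Set G)) := by
    intro h
    have h3 := Nat.le_of_dvd (by have := hq.two_le; omega) (h.trans h1)
    omega
  have hpC : p ∣ Nat.card (centralizer ((Q : Subgroup G) : Set G)) :=
    ((Nat.Prime.dvd_mul hp).1 hdvd).resolve_right hd
  obtain ⟨y, hyC, hy⟩ := exists_mem_orderOf_eq_prime _ p hpC
  obtain ⟨z, hzQ, hz⟩ := exists_mem_orderOf_eq_prime (Q : Subgroup G) q (by rw [hQ])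
  have hcomm : Commute y z := by
    have := (mem_centralizer_iff.1 hyC) z hzQ
    exact this.symm
  have hcop : Nat.Coprime (orderOf y) (orderOf z) := by
    rw [hy, hz]
    exact (Nat.coprime_primes hp hq).2 (by omega)
  have hord := hcomm.orderOf_mul_eq_mul_orderOf_of_coprime hcop
  rw [hy, hz] at hord
  have h4 := orderOf_dvd_card_centralizer_of_dvd p P hP (y * z) (by rw [hord]; exact dvd_mul_right _ _)
  rw [hord, hC] at h4
  have h5 := Nat.le_of_dvd hp.pos h4
  have : p * 2 ≤ p * q := Nat.mul_le_mul_left p hq.two_le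
  have := hp.pos
  omega

end Cfsg.Agent.H21
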